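import Mathlib
import Cfsg.Agent.Base
import Cfsg.Agent.Lib.SylInt.Ess
import Cfsg.Agent.Lib.BG.Api.Basic

/-! # Quadratic offenders on abelian essential subgroups (elementary failure of factorization) -/

set_option autoImplicit false

namespace H32.AI

open Subgroup Cfsg H69 H59 H45 H69.SI

variable {G : Type*} [Group G]

/-- `d⁻¹ · a d a⁻¹`. -/
def cm (a d : G) : G := d⁻¹ * (a * d * a⁻¹)

theorem mul_cm (a d : G) : d * cm a d = a * d * a⁻¹ := by simp [cm]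

theorem cm_eq_one {a d : G} : cm a d = 1 ↔ a * d = d * a := by
  rw [cm, inv_mul_eq_one, eq_mul_inv_iff_mul_eq, eq_comm]

theorem cm_mem {W : Subgroup G} {a d : G} (ha : a ∈ 𝐍(W)) (hd : d ∈ W) : cm a d ∈ W :=
  mul_mem (inv_mem hd) (conj_mem_of_mem_normalizer ha hd)

theorem conj_cm (n a d : G) : n * cm a d * n⁻¹ = cm (n * a * n⁻¹) (n * d * n⁻¹) := by
  simp only [cm]; group

theorem cm_mul_left {a z : G} (h : a * z = z * a) (d : G) : cm a (z * d) = cm a d := by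
  simp only [cm]
  rw [← mul_assoc a z, h]; group

theorem cm_mul_right {c d : G} (h : c * d = d * c) (a : G) : cm (a * c) d = cm a d := by
  simp only [cm]
  rw [mul_assoc a c, h]; group

theorem card_inf_mul [Finite G] (A B : Subgroup G) :
    Nat.card (A ⊓ B : Subgroup G) * B.relIndex A = Nat.card A := by
  rw [← card_subgroupOf (inf_le_left : A ⊓ B ≤ A), inf_subgroupOf_left]
  exact card_mul_index _

theorem relIndex_cj (A B : Subgroup G) (g : G) : (A ^ᶜ g).relIndex (B ^ᶜ g) = A.relIndex B := by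
  rw [← smul_eq_cj, ← smul_eq_cj]
  exact relIndex_pointwise_smul _ _ _

theorem relIndex_le_of_map [Finite G] {A B A0 B0 : Subgroup G} (f : G → G) (hf : ∀ a ∈ A, f a ∈ B)
    (h : ∀ a ∈ A, ∀ a' ∈ A, (f a)⁻¹ * f a' ∈ B0 → a⁻¹ * a' ∈ A0) :
    A0.relIndex A ≤ B0.relIndex B ∧
      (B0.relIndex B ≤ A0.relIndex A → ∀ b ∈ B, ∃ a ∈ A, (f a)⁻¹ * b ∈ B0) := by
  let φ : A ⧸ A0.subgroupOf A → B ⧸ B0.subgroupOf B := fun x =>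
    QuotientGroup.mk ⟨f x.out, hf _ x.out.2⟩
  have hφ : Function.Injective φ := fun x y e => by
    have h1 := h _ x.out.2 _ y.out.2 ((QuotientGroup.eq (s := B0.subgroupOf B)).1 e)
    rw [← x.out_eq, ← y.out_eq]
    exact QuotientGroup.eq.2 h1
  refine ⟨Nat.card_le_card_of_injective φ hφ, fun hle b hb => ?_⟩
  obtain ⟨x, hx⟩ := (hφ.bijective_of_nat_card_le hle).2 (QuotientGroup.mk ⟨b, hb⟩)
  exact ⟨_, x.out.2, (QuotientGroup.eq (s := B0.subgroupOf B)).1 hx⟩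

/-- `E` is a quadratic offender on the faithful module `W` of the automizer of the abelian essential
subgroup `D`. -/
structure Off (S D W E : Subgroup G) : Prop where
  ess : Ess 2 ⊤ S D
  WD : W ≤ D
  ab : D ≤ 𝐂(D)
  nW : 𝐍(D) ≤ 𝐍(W)
  fa : 𝐍(D) ⊓ 𝐂(W) ≤ essGen ⊤ S D
  EP : E ≤ S ⊓ 𝐍(D)
  nle : ¬ E ≤ D
  quad : ∀ a ∈ E, ∀ d ∈ W, cm a d ∈ 𝐂(E)
  off : 𝐂(E).relIndex W ≤ D.relIndex E

/-- Elements of `N(D)` outside the strongly embedded subgroup. -/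
def Out (S D : Subgroup G) (n : G) : Prop := n ∈ 𝐍(D) ∧ n ∉ essGen ⊤ S D

theorem Out.inv {S D : Subgroup G} {n : G} (h : Out S D n) : Out S D n⁻¹ :=
  ⟨inv_mem h.1, fun e => h.2 (inv_mem_iff.1 e)⟩

variable [Finite G] {S D W E : Subgroup G}

omit [Finite G] in
theorem exists_out (h : Ess 2 ⊤ S D) : ∃ n, Out S D n := by
  obtain ⟨g, hg, hg'⟩ := SetLike.not_le_iff_exists.1 h.not_le
  exact ⟨g, hg.2, hg'⟩

theorem mem_of_conj (h : Ess 2 ⊤ S D) {n a : G} (hn : n ∈ 𝐍(D)) (ha : a ∈ S ⊓ 𝐍(D)) (ha' : a ∉ D)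
    (e : n * a * n⁻¹ ∈ essGen ⊤ S D) : n ∈ essGen ⊤ S D := by
  obtain ⟨k, hk⟩ := isPGroup_iff_mem.1 h.isP a ha.1
  exact ess_mem h ⟨mem_top n, hn⟩ (h.sylow_le ha) ha' hk e

theorem Out.conj (h : Ess 2 ⊤ S D) {n a : G} (hn : Out S D n) (ha : a ∈ S ⊓ 𝐍(D)) (ha' : a ∉ D) :
    Out S D (n⁻¹ * a * n) :=
  ⟨mul_mem (mul_mem (inv_mem hn.1) ha.2) hn.1, fun e => hn.inv.2
    (mem_of_conj h (inv_mem hn.1) ha ha' (by rwa [inv_inv]))⟩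

namespace Off

variable (h : Off S D W E)
include h

omit [Finite G] in
theorem EN {a : G} (ha : a ∈ E) : a ∈ 𝐍(D) := (h.EP ha).2

omit [Finite G] in
theorem cm_Z {a d : G} (ha : a ∈ E) (hd : d ∈ W) : cm a d ∈ W ⊓ 𝐂(E) :=
  ⟨cm_mem (h.nW (h.EN ha)) hd, h.quad a ha d hd⟩

omit [Finite G] in
theorem comm {x y : G} (hx : x ∈ W) (hy : y ∈ W) : x * y = y * x := h.ab (h.WD hy) x (h.WD hx)

omit [Finite G] in
theorem cj_le {n : G} (hn : n ∈ 𝐍(D)) : (W ⊓ 𝐂(E)) ^ᶜ n ≤ W :=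
  cj_le_of_mem_normalizer inf_le_left (h.nW hn)

omit [Finite G] in
theorem cm_div {a a' d : G} (ha : a ∈ E) (ha' : a' ∈ E) (hd : d ∈ W) :
    (cm a d)⁻¹ * cm a' d = cm (a⁻¹ * a') d := by
  have := (h.cm_Z (mul_mem (inv_mem ha) ha') hd).2 a ha
  rw [← mul_inv_eq_iff_eq_mul] at this
  rw [← this]; simp only [cm]; group

omit [Finite G] in
theorem idx_cj {n : G} (hn : n ∈ 𝐍(D)) : ((W ⊓ 𝐂(E)) ^ᶜ n).relIndex W = 𝐂(E).relIndex W := by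
  have := relIndex_cj (W ⊓ 𝐂(E)) W n
  rwa [cj_eq_of_mem_normalizer (h.nW hn), inf_relIndex_left] at this

theorem not_le {n : G} (hn : Out S D n) : ¬ (W ⊓ 𝐂(E)) ^ᶜ n ≤ W ⊓ 𝐂(E) := fun e => by
  have e' := cj_eq_of_cj_le e
  obtain ⟨a, ha, ha'⟩ := SetLike.not_le_iff_exists.1 h.nle
  have hb : n * a * n⁻¹ ∈ 𝐍(D) := mul_mem (mul_mem hn.1 (h.EN ha)) (inv_mem hn.1)
  have h1 : ∀ d ∈ W, cm (n * a * n⁻¹) d ∈ W ⊓ 𝐂(E) := fun d hd => by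
    have := cj_mem n (h.cm_Z ha (conj_mem_of_mem_normalizer' (h.nW hn.1) hd))
    rw [e', conj_cm] at this
    simpa [mul_assoc] using this
  have h2 : ∀ z ∈ W ⊓ 𝐂(E), n * a * n⁻¹ * z * (n * a * n⁻¹)⁻¹ = z := fun z hz => by
    rw [← e'] at hz
    obtain ⟨y, hy, rfl⟩ := mem_cj'.1 hz
    rw [show n * a * n⁻¹ * (n * y * n⁻¹) * (n * a * n⁻¹)⁻¹ = n * (a * y * a⁻¹) * n⁻¹ by group,
      hy.2 a ha, mul_inv_cancel_right]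
  generalize hb' : n * a * n⁻¹ = b at hb h1 h2
  have h3 : a⁻¹ * (b⁻¹ * a * b⁻¹⁻¹) ∈ essGen ⊤ S D := h.fa (mem_inf.2 ⟨mul_mem (inv_mem (h.EN ha))
    (mul_mem (mul_mem (inv_mem hb) (h.EN ha)) (inv_mem (inv_mem hb))), fun d hd => by
      have e1 : a * (b * d * b⁻¹) * a⁻¹ = b * (a * d * a⁻¹) * b⁻¹ := by
        rw [← mul_cm b, ← mul_cm a d, ← conj_mul, ← conj_mul, h2 _ (h.cm_Z ha hd), (h1 d hd).2 a ha,
          mul_inv_cancel_right, ← mul_cm, ← mul_cm b, mul_assoc, mul_assoc,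
          h.comm (h1 d hd).1 (h.cm_Z ha hd).1]
      calc d * (a⁻¹ * (b⁻¹ * a * b⁻¹⁻¹)) = (b * a)⁻¹ * (b * (a * d * a⁻¹) * b⁻¹) * (a * b) := by group
        _ = _ := by rw [← e1]; group⟩)
  have h4 := mem_of_conj h.ess (inv_mem hb) (h.EP ha) ha'
    ((mul_mem_cancel_left (inv_mem (h.ess.sylow_le (h.EP ha)))).1 h3)
  exact hn.2 (mem_of_conj h.ess hn.1 (h.EP ha) ha' (hb' ▸ inv_mem_iff.1 h4))

theorem key {n : G} (hn : Out S D n)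
    (hm : ∀ k, Out S D k → Nat.card (W ⊓ 𝐂(E) ⊓ (W ⊓ 𝐂(E)) ^ᶜ k : Subgroup G) ≤
      Nat.card (W ⊓ 𝐂(E) ⊓ (W ⊓ 𝐂(E)) ^ᶜ n : Subgroup G))
    {d a : G} (hd : d ∈ (W ⊓ 𝐂(E)) ^ᶜ n) (hd' : d ∉ W ⊓ 𝐂(E)) (ha : a ∈ E) (ha' : a ∉ D) :
    cm a d ∉ (W ⊓ 𝐂(E)) ^ᶜ n := fun e => by
  have h1 := hm _ (hn.conj h.ess (h.EP ha) ha')
  rw [← card_cj _ n, cj_inf, cj_cj, show n * (n⁻¹ * a * n) = a * n by group, ← cj_cj] at h1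
  refine h1.not_gt (card_lt_of_lt (lt_of_le_of_ne (fun z hz => ⟨hz.2, ?_⟩) fun e' => hd' ?_))
  · have := cj_mem a hz.2
    rwa [hz.1.2 a ha, mul_inv_cancel_right] at this
  · have h2 : a * d * a⁻¹ ∈ W ⊓ 𝐂(E) ⊓ (W ⊓ 𝐂(E)) ^ᶜ n :=
      e' ▸ ⟨mul_cm a d ▸ mul_mem hd e, cj_mem a hd⟩
    have h3 := h2.1.2 a ha
    rw [inv_mul_cancel_right, mul_right_inj] at h3
    rw [h3] at h2
    exact h2.1

theorem exists_mem {n : G} (hn : Out S D n) : ∃ d ∈ (W ⊓ 𝐂(E)) ^ᶜ n, d ∉ W ⊓ 𝐂(E) :=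
  SetLike.not_le_iff_exists.1 (h.not_le hn)

theorem idx_all : 𝐂(E).relIndex W = D.relIndex E ∧ ∀ n, Out S D n →
    ((W ⊓ 𝐂(E)) ^ᶜ n).relIndex (W ⊓ 𝐂(E)) = D.relIndex E ∧
    ∀ d ∈ (W ⊓ 𝐂(E)) ^ᶜ n, d ∉ W ⊓ 𝐂(E) → ∀ a ∈ E, a ∉ D → cm a d ∉ (W ⊓ 𝐂(E)) ^ᶜ n := by
  obtain ⟨y, hy⟩ := exists_out h.ess
  obtain ⟨n, hn, hm⟩ := Set.exists_max_image {k | Out S D k}
    (fun k => Nat.card (W ⊓ 𝐂(E) ⊓ (W ⊓ 𝐂(E)) ^ᶜ k : Subgroup G)) (Set.toFinite _) ⟨y, hy⟩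
  have h0 : ∀ k, Out S D k → ((W ⊓ 𝐂(E)) ^ᶜ k).relIndex (W ⊓ 𝐂(E)) ≤ 𝐂(E).relIndex W := fun k hk =>
    h.idx_cj hk.1 ▸ relIndex_le_of_le_right inf_le_left FiniteIndex.index_ne_zero
  obtain ⟨d, hd, hd'⟩ := h.exists_mem hn
  have h1 := (relIndex_le_of_map (A := E) (A0 := D) (B := W ⊓ 𝐂(E)) (B0 := (W ⊓ 𝐂(E)) ^ᶜ n)
    (fun a => cm a d) (fun a ha => h.cm_Z ha (h.cj_le hn.1 hd)) fun a ha a' ha' e => by
      by_contra e'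
      rw [h.cm_div ha ha' (h.cj_le hn.1 hd)] at e
      exact h.key hn hm hd hd' (mul_mem (inv_mem ha) ha') e' e).1
  have h2 := h0 n hn
  have h3 := h.off
  have h4 : ∀ k, Out S D k → Nat.card (W ⊓ 𝐂(E) ⊓ (W ⊓ 𝐂(E)) ^ᶜ n : Subgroup G) ≤
      Nat.card (W ⊓ 𝐂(E) ⊓ (W ⊓ 𝐂(E)) ^ᶜ k : Subgroup G) := fun k hk => by
    have e1 := card_inf_mul (W ⊓ 𝐂(E)) ((W ⊓ 𝐂(E)) ^ᶜ n)
    have e2 := card_inf_mul (W ⊓ 𝐂(E)) ((W ⊓ 𝐂(E)) ^ᶜ k)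
    have e3 := h0 k hk
    have e4 : 0 < ((W ⊓ 𝐂(E)) ^ᶜ n).relIndex (W ⊓ 𝐂(E)) :=
      Nat.pos_of_ne_zero FiniteIndex.index_ne_zero
    refine Nat.le_of_mul_le_mul_right ?_ e4
    rw [e1, ← e2]
    exact Nat.mul_le_mul_left _ (by omega)
  refine ⟨by omega, fun k hk => ⟨?_, fun d hd hd' a ha ha' =>
    h.key hk (fun l hl => (hm l hl).trans (h4 k hk)) hd hd' ha ha'⟩⟩
  have e1 := card_inf_mul (W ⊓ 𝐂(E)) ((W ⊓ 𝐂(E)) ^ᶜ n)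
  have e2 := card_inf_mul (W ⊓ 𝐂(E)) ((W ⊓ 𝐂(E)) ^ᶜ k)
  rw [le_antisymm (hm k hk) (h4 k hk), ← e1] at e2
  rw [Nat.eq_of_mul_eq_mul_left Nat.card_pos e2]
  omega

theorem idx : 𝐂(E).relIndex W = D.relIndex E := h.idx_all.1

theorem dec {n : G} (hn : Out S D n) {w : G} (hw : w ∈ W) :
    ∃ z ∈ W ⊓ 𝐂(E), z⁻¹ * w ∈ (W ⊓ 𝐂(E)) ^ᶜ n :=
  (relIndex_le_of_map (A := W ⊓ 𝐂(E)) (A0 := (W ⊓ 𝐂(E)) ^ᶜ n) (B := W) (B0 := (W ⊓ 𝐂(E)) ^ᶜ n) id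
    (fun _ ha => ha.1) fun _ _ _ _ e => e).2
    (by rw [h.idx_cj hn.1, (h.idx_all.2 n hn).1, h.idx]) w hw

theorem cm_not_mem {n : G} (hn : Out S D n) {d a : G} (hd : d ∈ W) (hd' : d ∉ 𝐂(E)) (ha : a ∈ E)
    (ha' : a ∉ D) : cm a d ∉ (W ⊓ 𝐂(E)) ^ᶜ n := by
  obtain ⟨z, hz, e⟩ := h.dec hn hd
  rw [← cm_mul_left (z := z⁻¹) ((inv_mem hz).2 a ha)]
  exact (h.idx_all.2 n hn).2 _ e (fun e' => hd' ((mul_mem_cancel_left (inv_mem hz)).1 e').2) a ha ha'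

theorem inj {n : G} (hn : Out S D n) {d : G} (hd : d ∈ W) (hd' : d ∉ 𝐂(E)) :
    ∀ a ∈ E, ∀ a' ∈ E, (cm a d)⁻¹ * cm a' d ∈ (W ⊓ 𝐂(E)) ^ᶜ n → a⁻¹ * a' ∈ D := fun a ha a' ha' e => by
  by_contra e'
  rw [h.cm_div ha ha' hd] at e
  exact h.cm_not_mem hn hd hd' (mul_mem (inv_mem ha) ha') e' e

theorem surj {n : G} (hn : Out S D n) {d : G} (hd : d ∈ W) (hd' : d ∉ 𝐂(E)) {w : G} (hw : w ∈ W) :
    ∃ a ∈ E, (cm a d)⁻¹ * w ∈ (W ⊓ 𝐂(E)) ^ᶜ n :=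
  (relIndex_le_of_map (A := E) (A0 := D) (B := W) (B0 := (W ⊓ 𝐂(E)) ^ᶜ n) (fun a => cm a d)
    (fun _ ha => (h.cm_Z ha hd).1) (h.inj hn hd hd')).2 (by rw [h.idx_cj hn.1, h.idx]) w hw

theorem exists_d : ∃ d ∈ W, d ∉ 𝐂(E) := by
  obtain ⟨y, hy⟩ := exists_out h.ess
  obtain ⟨d, hd, hd'⟩ := h.exists_mem hy
  exact ⟨d, h.cj_le hy.1 hd, fun e => hd' ⟨h.cj_le hy.1 hd, e⟩⟩

theorem two {y y' : G} (hy : Out S D y) (hy' : Out S D y') :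
    ∃ a ∈ E, (a * y)⁻¹ * y' ∈ essGen ⊤ S D := by
  obtain ⟨b, hb, hb'⟩ := SetLike.not_le_iff_exists.1 h.nle
  obtain ⟨d, hd, hd'⟩ := h.exists_d
  have h1 := conj_mem_of_mem_normalizer (h.nW hy.1) (h.cm_Z hb hd).1
  obtain ⟨a, ha, e⟩ := h.surj hy' h1 (fun e => h.cm_not_mem hy.inv hd hd' hb hb'
    (mem_cj.2 (by rw [inv_inv]; exact ⟨h1, e⟩))) (inv_mem h1)
  refine ⟨a, ha, by_contra fun e' => h.cm_not_mem (n := (a * y)⁻¹ * y')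
    ⟨mul_mem (inv_mem (mul_mem (h.EN ha) hy.1)) hy'.1, e'⟩ hd hd' hb hb' ?_⟩
  rw [← mul_inv_rev, inv_mem_iff, mul_cm, mem_cj] at e
  rw [mem_cj]
  simpa [mul_assoc] using e

theorem syl {s : G} (hs : s ∈ S ⊓ 𝐍(D)) : ∃ a ∈ E, a⁻¹ * s ∈ D := by
  by_cases hs' : s ∈ D
  · exact ⟨1, one_mem _, by simpa using hs'⟩
  obtain ⟨y, hy⟩ := exists_out h.ess
  obtain ⟨a, ha, e⟩ := h.two hy (y' := s * y) ⟨mul_mem (mem_inf.1 hs).2 hy.1, fun e =>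
    hy.2 ((mul_mem_cancel_left (h.ess.sylow_le hs)).1 e)⟩
  refine ⟨a, ha, by_contra fun e' => (hy.conj h.ess (mul_mem (inv_mem (h.EP ha)) hs) e').2 ?_⟩
  simpa [mul_assoc] using e

end Off

end H32.AI
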