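import Mathlib
import Cfsg.Agent.Base
import Cfsg.Agent.Lib.AbInt.FF

/-! # Abelian essential subgroups with an offender; the non-normal ones -/

set_option autoImplicit false

namespace H32.AI

open Subgroup Cfsg H69 H59 H45 H69.SI
open scoped commutatorElement

variable {G : Type*} [Group G]

theorem exists_sq_mem {D : Subgroup G} : ∀ (k : ℕ) {x : G}, x ^ 2 ^ k ∈ D → x ∉ D →
    ∃ y ∈ zpowers x, y ∉ D ∧ y * y ∈ D
  | 0, x, h, h' => absurd (by simpa using h) h'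
  | k + 1, x, h, h' => by
    by_cases e : x * x ∈ D
    · exact ⟨x, mem_zpowers x, h', e⟩
    obtain ⟨y, hy, h1⟩ := exists_sq_mem k (x := x * x) (by rwa [← pow_two, ← pow_mul, ← pow_succ']) e
    exact ⟨y, zpowers_le.2 (mul_mem (mem_zpowers x) (mem_zpowers x)) hy, h1⟩

theorem cm_mul {D : Subgroup G} (hD : D ≤ 𝐂(D)) {x d d' : G} (hx : x ∈ 𝐍(D)) (hd : d ∈ D)
    (hd' : d' ∈ D) : cm x (d * d') = cm x d * cm x d' := by
  have := hD (cm_mem hx hd) _ (inv_mem hd')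
  calc cm x (d * d') = d'⁻¹ * cm x d * (x * d' * x⁻¹) := by simp only [cm]; group
    _ = _ := by rw [this]; simp only [cm]; group

theorem mul_cm' (x x' d : G) : cm (x * x') d = cm x d * (x * cm x' d * x⁻¹) := by
  simp only [cm]; group

/-- `Z(N_S(D))`. -/
def ZZ (S D : Subgroup G) : Subgroup G := D ⊓ 𝐂(S ⊓ 𝐍(D))

/-- The part of `D` centralized by all conjugates of `N_S(D)` in `N(D)`. -/
def Z0 (S D : Subgroup G) : Subgroup G := D ⊓ 𝐂(ncl (S ⊓ 𝐍(D)) 𝐍(D))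

theorem Z0_le (S D : Subgroup G) : Z0 S D ≤ ZZ S D :=
  inf_le_inf_left _ (centralizer_anti (le_ncl _ _))

theorem norm_Z0 (S D : Subgroup G) : 𝐍(D) ≤ 𝐍(Z0 S D) :=
  le_normalizer_inf le_rfl (le_normalizer_centralizer (le_normalizer_ncl _ _))

/-- The shape of an abelian essential subgroup with an offender. -/
structure FF (S D : Subgroup G) : Prop where
  ess : Ess 2 ⊤ S D
  ab : D ≤ 𝐂(D)
  quad : ∀ x ∈ S ⊓ 𝐍(D), ∀ d ∈ D, cm x d ∈ ZZ S D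
  nm : ∀ x ∈ S ⊓ 𝐍(D), x ∉ D → ∀ d ∈ D, d ∉ ZZ S D → cm x d ∉ Z0 S D
  sq : ∀ d ∈ D, d * d ∈ Z0 S D
  dec : ∀ d ∈ D, ∃ v ∈ D, v * v = 1 ∧ v * d ∈ Z0 S D
  surj : ∀ d ∈ D, d ∉ ZZ S D → ∀ z ∈ ZZ S D, ∃ x ∈ S ⊓ 𝐍(D), (cm x d)⁻¹ * z ∈ Z0 S D
  z0 : ∀ n, Out S D n → ZZ S D ⊓ ZZ S D ^ᶜ n ≤ Z0 S D
  mZ : essGen ⊤ S D ≤ 𝐍(ZZ S D)
  two : ∀ y y', Out S D y → Out S D y' → ∃ a ∈ S ⊓ 𝐍(D), (a * y)⁻¹ * y' ∈ essGen ⊤ S D
  cl : ⁅S ⊓ 𝐍(D), S ⊓ 𝐍(D)⁆ ≤ ZZ S D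

variable [Finite G] {S D E : Subgroup G}

theorem off_of (h : Ess 2 ⊤ S D) (hD : D ≤ 𝐂(D)) (hE : E ≤ 𝐂(E)) (h1 : E ≤ S ⊓ 𝐍(D))
    (h2 : D ≤ 𝐍(E)) (h3 : ¬ E ≤ D) (h4 : Nat.card D ≤ Nat.card E) : Off S D D E where
  ess := h
  WD := le_rfl
  ab := hD
  nW := le_rfl
  fa := fun _ hx => centralizer_le_essGen ⟨mem_top _, hx.2⟩
  EP := h1
  nle := h3
  quad := fun a ha d hd => hE (by
    have := mul_mem (conj_mem_of_mem_normalizer' (h2 hd) ha) (inv_mem ha)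
    simpa [cm, mul_assoc] using this)
  off := by
    refine (relIndex_le_of_le_left hE FiniteIndex.index_ne_zero).trans ?_
    have e1 := card_inf_mul D E
    have e2 := card_inf_mul E D
    rw [inf_comm] at e2
    refine Nat.le_of_mul_le_mul_left ?_ (Nat.card_pos (α := (D ⊓ E : Subgroup G)))
    omega

theorem Off.sup (h : Off S D D E) : S ⊓ 𝐍(D) = E ⊔ D :=
  le_antisymm (fun s hs => by
    obtain ⟨a, ha, e⟩ := h.syl hs
    simpa using mul_mem (mem_sup_left ha : a ∈ E ⊔ D) (mem_sup_right e))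
    (sup_le h.EP h.ess.lt.le)

theorem Off.ff (h : Off S D D E) (hE : E ≤ 𝐂(E)) : FF S D := by
  have hZ : D ⊓ 𝐂(E) = ZZ S D := by
    rw [ZZ, h.sup, centralizer_sup, inf_comm 𝐂(E), ← inf_assoc, inf_eq_left.2 h.ab]
  have hc : ∀ x ∈ S ⊓ 𝐍(D), ∃ a ∈ E, (x ∉ D → a ∉ D) ∧ ∀ d ∈ D, cm x d = cm a d := fun x hx => by
    obtain ⟨a, ha, e⟩ := h.syl hx
    refine ⟨a, ha, fun h1 h2 => h1 ((mul_mem_cancel_left (inv_mem h2)).1 e), fun d hd => ?_⟩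
    rw [← cm_mul_right (h.ab hd _ e) a, mul_inv_cancel_left]
  have quad : ∀ x ∈ S ⊓ 𝐍(D), ∀ d ∈ D, cm x d ∈ ZZ S D := fun x hx d hd => by
    obtain ⟨a, ha, -, e⟩ := hc x hx
    rw [e d hd, ← hZ]; exact h.cm_Z ha hd
  have nm : ∀ n, Out S D n → ∀ x ∈ S ⊓ 𝐍(D), x ∉ D → ∀ d ∈ D, d ∉ ZZ S D →
      cm x d ∉ ZZ S D ^ᶜ n := fun n hn x hx hx' d hd hd' => by
    obtain ⟨a, ha, ha', e⟩ := hc x hx
    rw [e d hd, ← hZ]
    exact h.cm_not_mem hn hd (fun e => hd' (hZ ▸ ⟨hd, e⟩)) ha (ha' hx')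
  obtain ⟨y, hy⟩ := exists_out h.ess
  have hcx : ∀ x ∈ S ⊓ 𝐍(D), x ∉ D → ∀ d ∈ D, x * d = d * x → d ∈ ZZ S D := fun x hx hx' d hd e =>
    by_contra fun e' => nm y hy x hx hx' d hd e' (by rw [cm_eq_one.2 e]; exact one_mem _)
  have mZ : essGen ⊤ S D ≤ 𝐍(ZZ S D) := essGen_le_iff.2 ⟨fun c hc =>
    cents_norm (centralizer_anti inf_le_left) hc.2, fun P h1 h2 n hn => by
      obtain ⟨x, hx, hx'⟩ := SetLike.exists_of_lt h1
      have : ZZ S D = D ⊓ 𝐂(P) := le_antisymm (inf_le_inf_left _ (centralizer_anti h2))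
        fun d hd => hcx x (h2 hx) hx' d hd.1 (hd.2 x hx)
      rw [this]
      exact le_normalizer_inf (L := 𝐍(D) ⊓ 𝐍(P)) inf_le_left (le_normalizer_centralizer inf_le_right)
        ⟨hn.1.2, hn.2⟩⟩
  have z0 : ∀ n, Out S D n → ZZ S D ⊓ ZZ S D ^ᶜ n ≤ Z0 S D := fun n hn z hz =>
    ⟨hz.1.1, centsC.1 (ncl_le_iff.2 fun k hk => centsC.1 (zpowers_le.2 (by
      rw [← cj_centralizer]
      refine cj_mono k (inf_le_right : ZZ S D ≤ _) (?_ : z ∈ ZZ S D ^ᶜ k)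
      by_cases e : k ∈ essGen ⊤ S D
      · rw [cj_eq_of_mem_normalizer (mZ e)]; exact hz.1
      obtain ⟨a, ha, e'⟩ := h.two hn ⟨hk, e⟩
      rw [show k = a * n * ((a * n)⁻¹ * k) by group, ← cj_cj, cj_eq_of_mem_normalizer (mZ e'), ← cj_cj]
      have := cj_mem a hz.2
      rwa [hz.1.2 a (h.EP ha), mul_inv_cancel_right] at this))) (mem_zpowers z)⟩
  have sq : ∀ d ∈ D, d * d ∈ Z0 S D := by
    obtain ⟨a, ha, ha'⟩ := SetLike.exists_of_lt h.ess.lt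
    obtain ⟨k, hk⟩ := isPGroup_iff_mem.1 h.ess.isP a ha.1
    obtain ⟨x, hx, hx', hx2⟩ := exists_sq_mem (D := D) k (hk ▸ one_mem _) ha'
    replace hx := zpowers_le.2 ha hx
    have h1 : ∀ d ∈ D, d * d ∈ ZZ S D := fun d hd => hcx x hx hx' _ (mul_mem hd hd) (by
      have := mul_cm' x x d
      rw [cm_eq_one.2 (h.ab hd _ hx2), (quad x hx d hd).2 x hx, mul_inv_cancel_right,
        ← cm_mul h.ab hx.2 hd hd] at this
      exact cm_eq_one.1 this.symm)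
    refine fun d hd => z0 y hy ⟨h1 d hd, mem_cj.2 ?_⟩
    have := h1 _ (conj_mem_of_mem_normalizer' hy.1 hd)
    simpa [mul_assoc] using this
  have surj : ∀ d ∈ D, d ∉ ZZ S D → ∀ z ∈ ZZ S D, ∃ x ∈ S ⊓ 𝐍(D), (cm x d)⁻¹ * z ∈ Z0 S D :=
    fun d hd hd' z hz => by
      obtain ⟨a, ha, e⟩ := h.surj hy hd (fun e => hd' (hZ ▸ ⟨hd, e⟩)) hz.1
      exact ⟨a, h.EP ha, z0 y hy (mem_inf.2 ⟨mul_mem (inv_mem (quad a (h.EP ha) d hd)) hz, hZ ▸ e⟩)⟩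
  have h2 : ∀ z ∈ ZZ S D, ∃ v ∈ D, v * v = 1 ∧ v * z ∈ Z0 S D := fun z hz => by
    obtain ⟨d, hd, hd'⟩ := h.exists_d
    obtain ⟨x, hx, e⟩ := surj d hd (fun e => hd' (hZ ▸ e : d ∈ D ⊓ 𝐂(E)).2) z hz
    refine ⟨_, inv_mem (cm_mem hx.2 hd), ?_, e⟩
    rw [← mul_inv_rev, ← cm_mul h.ab hx.2 hd hd, cm_eq_one.2 ((Z0_le S D (sq d hd)).2 x hx), inv_one]
  refine ⟨h.ess, h.ab, quad, fun x hx hx' d hd hd' e => nm y hy x hx hx' d hd hd' (by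
    have := cj_mono y (Z0_le S D)
    rw [cj_eq_of_mem_normalizer (norm_Z0 S D hy.1)] at this
    exact this e), sq, fun d hd => ?_, surj, z0, mZ, fun y y' hy hy' => ?_, ?_⟩
  · obtain ⟨z, hz, e⟩ := h.dec hy hd
    rw [hZ] at hz e
    obtain ⟨z', hz', e⟩ := mem_cj'.1 e
    obtain ⟨v, hv, v2, e1⟩ := h2 z hz
    obtain ⟨v', hv', v2', e2⟩ := h2 z' hz'
    have h3 := conj_mem_of_mem_normalizer hy.1 hv'
    refine ⟨v * (y * v' * y⁻¹), mul_mem hv h3, ?_, ?_⟩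
    · rw [mul_assoc, ← mul_assoc _ v, h.ab hv _ h3, mul_assoc v, conj_mul, v2', ← mul_assoc, v2]; group
    · have := mul_mem e1 (conj_mem_of_mem_normalizer (norm_Z0 S D hy.1) e2)
      rwa [← conj_mul, ← e, mul_assoc, ← mul_assoc z, h.ab h3 z hz.1, mul_assoc, mul_inv_cancel_left,
        ← mul_assoc] at this
  · obtain ⟨a, ha, e⟩ := h.two hy hy'
    exact ⟨a, h.EP ha, e⟩
  · have hn : S ⊓ 𝐍(D) ≤ 𝐍(ZZ S D) := h.ess.sylow_le.trans mZ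
    have h3 : ⁅E, D⁆ ≤ ZZ S D := commutator_le.2 fun a ha d hd => by
      have := conj_mem_of_mem_normalizer (hn (h.ess.lt.le hd)) (quad a (h.EP ha) d hd)
      simpa [cm, commutatorElement_def, mul_assoc] using this
    rw [h.sup] at hn ⊢
    have hE' := le_sup_left.trans hn
    have hD' := le_sup_right.trans hn
    refine commutator_sup_le_left hE' hD' (commutator_sup_le_right hE' hD' ?_ h3)
      (commutator_sup_le_right hE' hD' (by rwa [commutator_comm]) ?_)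
    · rw [commutator_eq_bot_of_le_centralizer hE]; exact bot_le
    · rw [commutator_eq_bot_of_le_centralizer h.ab]; exact bot_le

namespace FF

variable (h : FF S D)
include h

theorem cent {u : G} (hu : u ∈ D) (hu' : u ∉ ZZ S D) : S ⊓ 𝐂[u] = D := by
  have h1 : D ≤ S ⊓ 𝐂[u] := le_inf h.ess.le fun d hd => mem_cent1_iff.2 (h.ab hu d hd)
  refine le_antisymm (le_of_inf_normalizer_le h.ess.isP h.ess.le inf_le_left
    (le_normalizer_of_le h1) fun x hx => by_contra fun e => h.nm x ⟨hx.1.1, hx.2⟩ e u hu hu' ?_) h1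
  rw [cm_eq_one.2 (mem_cent1_iff.1 hx.1.2)]; exact one_mem _

theorem le_of_mem {A : Subgroup G} (hA : A ≤ S) (hA' : A ≤ 𝐂(A)) {u : G} (h0 : u ∈ A) (hu : u ∈ D)
    (hu' : u ∉ ZZ S D) : A ≤ D :=
  h.cent hu hu' ▸ le_inf hA fun a ha => mem_cent1_iff.2 (hA' h0 a ha)

theorem ZZ_eq : ZZ S D = S ⊓ 𝐍(D) ⊓ 𝐂(S ⊓ 𝐍(D)) :=
  le_antisymm (inf_le_inf_right _ h.ess.lt.le) (le_inf
    ((inf_le_inf inf_le_left (centralizer_anti h.ess.lt.le)).trans h.ess.centric) inf_le_right)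

theorem norm_ZZ : 𝐍(S ⊓ 𝐍(D)) ≤ 𝐍(ZZ S D) :=
  h.ZZ_eq ▸ le_normalizer_inf le_rfl (normalizer_le_normalizer_centralizer _)

theorem exists_inv : ∃ u ∈ D, u * u = 1 ∧ u ∉ ZZ S D := by
  by_contra e
  push Not at e
  refine h.ess.lt.not_ge ((le_inf inf_le_left (centsC.1 fun d hd => ?_)).trans h.ess.centric)
  obtain ⟨v, hv, v2, e'⟩ := h.dec d hd
  exact ((mul_mem_cancel_left (e v hv v2)).1 (Z0_le S D e')).2

omit [Finite G] in
theorem cm_sq {x d : G} (hx : x ∈ S ⊓ 𝐍(D)) (hd : d ∈ D) : cm x d * cm x d = 1 := by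
  rw [← cm_mul h.ab hx.2 hd hd, cm_eq_one.2 ((Z0_le S D (h.sq d hd)).2 x hx)]

end FF

/-- A non-normal abelian essential subgroup. -/
structure NN (S D : Subgroup G) (g : G) : Prop extends FF S D where
  gS : g ∈ S
  gP : g ∈ 𝐍(S ⊓ 𝐍(D))
  gD : g ∉ 𝐍(D)
  sup : S ⊓ 𝐍(D) = D ^ᶜ g ⊔ D

theorem exists_nn (h : Ess 2 ⊤ S D) (hD : D ≤ 𝐂(D)) (hn : ¬ S ≤ 𝐍(D)) : ∃ g, NN S D g := by
  obtain ⟨g, hg, hg'⟩ := SetLike.exists_of_lt (lt_inf_normalizer_of_lt h.isP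
    (inf_lt_left.2 hn : S ⊓ 𝐍(D) < S))
  have h1 : g ∉ 𝐍(D) := fun e => hg' ⟨hg.1, e⟩
  have h2 : D ^ᶜ g ≤ 𝐂(D ^ᶜ g) := by rw [← cj_centralizer]; exact cj_mono g hD
  have h3 := off_of h hD h2 (cj_le_of_mem_normalizer h.lt.le hg.2) (h.lt.le.trans (by
    rw [← cj_normalizer, ← cj_eq_of_mem_normalizer hg.2]; exact cj_mono g inf_le_right))
    (fun e => h1 (mem_normalizer_of_cj_le e)) (card_cj D g).ge
  exact ⟨g, h3.ff h2, hg.1, hg.2, h1, h3.sup⟩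

namespace NN

variable {g : G} (h : NN S D g)
include h

omit [Finite G] in
theorem cj_le : D ^ᶜ g ≤ S ⊓ 𝐍(D) := h.sup ▸ le_sup_left

omit [Finite G] in
theorem ab' : D ^ᶜ g ≤ 𝐂(D ^ᶜ g) := by rw [← cj_centralizer]; exact cj_mono g h.ab

theorem inter : D ⊓ D ^ᶜ g = ZZ S D := by
  refine le_antisymm (le_inf inf_le_left ?_) (le_inf inf_le_left ?_)
  · rw [h.sup, centralizer_sup]
    exact le_inf (inf_le_right.trans h.ab') (inf_le_left.trans h.ab)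
  · rw [← cj_eq_of_mem_normalizer (h.norm_ZZ h.gP)]
    exact cj_mono g inf_le_left

omit [Finite G] in
theorem norm_cj : S ⊓ 𝐍(D) ≤ 𝐍(D ^ᶜ g) := by
  rw [← cj_normalizer, ← cj_eq_of_mem_normalizer h.gP]; exact cj_mono g inf_le_right

theorem sq' {e : G} (he : e ∈ D ^ᶜ g) : e * e ∈ Z0 S D := by
  obtain ⟨d, hd, rfl⟩ := mem_cj'.1 he
  obtain ⟨v, hv, v2, e1⟩ := h.dec d hd
  have := h.sq _ (conj_mem_of_mem_normalizer (h.norm_ZZ h.gP) (Z0_le S D e1)).1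
  rwa [conj_mul, mul_assoc v, ← mul_assoc d, h.ab hv d hd, mul_assoc v d, ← mul_assoc v, v2, one_mul,
    ← conj_mul] at this

theorem inv_cases {x : G} (hx : x ∈ S ⊓ 𝐍(D)) (h2 : x * x = 1) : x ∈ D ∨ x ∈ D ^ᶜ g := by
  obtain ⟨a, ha, d, hd, rfl⟩ := (mem_sup_of_le_normalizer_right
    (h.cj_le.trans inf_le_right)).1 (h.sup ▸ hx)
  by_contra e
  push Not at e
  refine h.nm a (h.cj_le ha) (fun e' => e.1 (mul_mem e' hd)) d hd
    (fun e' => e.2 (mul_mem ha (h.inter.ge e').2)) ?_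
  have h3 : cm a d * (a * a) * (d * d) = 1 := by
    have : d * (cm a d * (a * a) * d) = 1 := by rw [← h2]; simp only [cm]; group
    rw [← mul_assoc, mul_eq_one_comm.1 this]
  rw [← mul_mem_cancel_right (h.sq' ha), ← mul_mem_cancel_right (h.sq d hd), h3]
  exact one_mem _

theorem le_cases {A : Subgroup G} (hA : A ≤ S) (hA' : A ≤ 𝐂(A)) {u : G} (h0 : u ∈ A)
    (hu : u ∈ S ⊓ 𝐍(D)) (h2 : u * u = 1) (hu' : u ∉ ZZ S D) : A ≤ D ∨ A ≤ D ^ᶜ g := by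
  rcases h.inv_cases hu h2 with e | e
  · exact Or.inl (h.le_of_mem hA hA' h0 e hu')
  · refine Or.inr (le_cj_iff.2 (h.le_of_mem (cj_le_of_mem hA (inv_mem h.gS)) (by
      rw [← cj_centralizer]; exact cj_mono _ hA') (cj_mem g⁻¹ h0) (by simpa using mem_cj.1 e)
      fun e' => hu' ?_))
    simpa [mul_assoc] using conj_mem_of_mem_normalizer (h.norm_ZZ h.gP) e'

theorem cj_eq {x : G} (hx : x ∈ 𝐍(S ⊓ 𝐍(D))) (hx' : x ∉ 𝐍(D)) : D ^ᶜ x = D ^ᶜ g := by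
  obtain ⟨u, hu, u2, hu'⟩ := h.exists_inv
  have h1 := cj_le_of_mem_normalizer h.ess.lt.le hx
  rcases h.le_cases (h1.trans inf_le_left) (by rw [← cj_centralizer]; exact cj_mono _ h.ab) (cj_mem x hu)
    (h1 (cj_mem x hu)) (by rw [conj_mul, u2]; group) (fun e => hu' (by
      simpa [mul_assoc] using conj_mem_of_mem_normalizer' (h.norm_ZZ hx) e)) with e | e
  · exact absurd (mem_normalizer_of_cj_le e) hx'
  · exact eq_of_le_of_card_ge e (by rw [card_cj, card_cj])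

theorem mem_Z {x u : G} (hx : x ∈ 𝐍(S ⊓ 𝐍(D))) (hx' : x ∉ 𝐍(D)) (hu : u ∈ D) (e : x * u * x⁻¹ ∈ D) :
    u ∈ ZZ S D := by
  have := conj_mem_of_mem_normalizer' (h.norm_ZZ hx) (h.inter.le ⟨e, h.cj_eq hx hx' ▸ cj_mem x hu⟩)
  simpa [mul_assoc] using this

end NN

end H32.AI
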