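import Mathlib
import Cfsg.Agent.Base
import Cfsg.Agent.Lib.AbInt.NN

/-! # Abelian essential subgroups: the case `q > 2` -/

set_option autoImplicit false

namespace H32.AI

open Subgroup Cfsg H69 H59 H45 H69.SI
open scoped commutatorElement

variable {G : Type*} [Group G]

/-- The hypotheses on the 2-fusion. -/
structure Cx (S : Subgroup G) : Prop where
  isP : IsPGroup 2 S
  ab : ∀ D, Ess 2 ⊤ S D → D ≤ 𝐂(D)
  nP : ∀ P ≤ S, ¬ P ≤ 𝐂(P) → 𝐍(P) ≤ 𝐍(S)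
  two : ∀ x ∈ 𝐍(S), (∃ k : ℕ, x ^ 2 ^ k = 1) → x ∈ S
  foc : ∀ T : Subgroup G, (∀ n ∈ 𝐍(S), ∀ x ∈ S, cm n x ∈ T) →
    (∀ D, Ess 2 ⊤ S D → ∀ n ∈ 𝐍(D), ∀ x ∈ D, cm n x ∈ T) → S ≤ T
  nsc : ∀ A ≤ S, A ≤ 𝐂(A) → 𝐍(S) ≤ 𝐍(A) → (∀ D, Ess 2 ⊤ S D → 𝐍(D) ≤ 𝐍(A)) → A = ⊥
  cl : ¬ ⁅S, S⁆ ≤ 𝐂(S)

/-- `|D : Z(N_S(D))| > 2`. -/
def Big (S D : Subgroup G) : Prop := ∃ u ∈ D, ∃ w ∈ D, u * u = 1 ∧ w * w = 1 ∧ u ∉ ZZ S D ∧
  w ∉ ZZ S D ∧ u * w ∉ ZZ S D

variable [Finite G] {S D D' : Subgroup G} {g g' : G}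

omit [Finite G] in
theorem ess_cj (h : Ess 2 ⊤ S D) {n : G} (hn : n ∈ 𝐍(S)) : Ess 2 ⊤ S (D ^ᶜ n) :=
  h.cj_of_mem (mem_top n) hn

theorem eq_of_le_ess (h : Ess 2 ⊤ S D) (hD : D ≤ D') (h1 : D' ≤ S) (h2 : D' ≤ 𝐂(D')) : D' = D :=
  le_antisymm ((le_inf h1 (h2.trans (centralizer_anti hD))).trans h.centric) hD

namespace NN

variable (h : NN S D g)
include h

theorem aux (h' : NN S D' g') {x u : G} (hx : x ∈ D') (x2 : x * x = 1) (hx' : x ∉ ZZ S D')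
    (hxP : x ∈ 𝐍(S ⊓ 𝐍(D))) (hxD : x ∉ 𝐍(D)) (hu : u ∈ D) (u2 : u * u = 1) (hu' : u ∉ ZZ S D) :
    u * x * u ∈ D' ^ᶜ g' := by
  have xi := inv_eq_of_mul_eq_one_right x2
  have ui := inv_eq_of_mul_eq_one_right u2
  have hxS := h'.ess.le hx
  have huS := h.ess.le hu
  have hb : x * u * x⁻¹ ∈ S ⊓ 𝐍(D) := conj_mem_of_mem_normalizer hxP (h.ess.lt.le hu)
  have h1 := h.nm _ hb (fun e => hu' (h.mem_Z hxP hxD hu e)) u hu hu'
  have h2 := h.cm_sq hb hu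
  have h3 : cm (x * u * x⁻¹) u = u * x * u * x * (u * x * u * x) := by
    simp only [cm, mul_inv_rev, xi, ui, mul_assoc]
  rw [h3] at h1 h2
  have hp : u * x * u * x ∈ S := mul_mem (mul_mem (mul_mem huS hxS) huS) hxS
  have h4 : u * x * u * x * x * (u * x * u * x)⁻¹ ∈ D' := h'.cent hx hx' ▸ mem_inf.2
    ⟨mul_mem (mul_mem hp hxS) (inv_mem hp), mem_cent1_iff.2 (by
      have e1 : u * x * u * x * x * (u * x * u * x)⁻¹ * x = u * x * u * x * (u * x * u * x) := by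
        simp only [mul_inv_rev, xi, ui, mul_assoc, x2, one_mul, mul_one, ← mul_assoc x x]
      have e2 : x * (u * x * u * x * x * (u * x * u * x)⁻¹) = (u * x * u * x * (u * x * u * x))⁻¹ := by
        simp only [mul_inv_rev, xi, ui, mul_assoc, x2, one_mul, mul_one, ← mul_assoc x x]
      rw [e1, e2, inv_eq_of_mul_eq_one_right h2])⟩
  have h5 : u * x * u * x ∈ 𝐍(D') := inv_mem_iff.1 (mem_normalizer_of_cj_le (h'.le_of_mem
    (cj_le_of_mem h'.ess.le (inv_mem hp)) (by rw [← cj_centralizer]; exact cj_mono _ h'.ab)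
    (mem_cj.2 (by rwa [inv_inv])) hx hx'))
  have h6 : u * x * u ∈ S ⊓ 𝐍(D') := ⟨mul_mem (mul_mem huS hxS) huS, by
    have := mul_mem h5 (le_normalizer hx)
    rwa [mul_assoc _ x x, x2, mul_one] at this⟩
  refine (h'.inv_cases h6 (by simp only [mul_assoc, ← mul_assoc u u, u2, one_mul, ← mul_assoc x x, x2])).resolve_left
    fun e => h1 ?_
  rw [mul_assoc (u * x * u) x, ← mul_assoc x, h'.ab e x hx]
  simp only [mul_assoc, ← mul_assoc u u, u2, one_mul, ← mul_assoc x x, x2]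
  exact one_mem _

theorem big_eq (hb : Big S D) (h' : NN S D' g') (hle : D' ≤ 𝐍(S ⊓ 𝐍(D))) : D' = D ∨ D' = D ^ᶜ g := by
  obtain ⟨x, hx, x2, hx'⟩ := h'.exists_inv
  have hxD : x ∈ 𝐍(D) := by
    by_contra hxD
    obtain ⟨u, hu, w, hw, u2, w2, hu', hw', huw⟩ := hb
    have xi := inv_eq_of_mul_eq_one_right x2
    have h1 := h.aux h' hx x2 hx' (hle hx) hxD hu u2 hu'
    have h2 := h.aux h' hx x2 hx' (hle hx) hxD hw w2 hw'
    have h3 := h'.ab' h1 _ h2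
    have h4 : x * (u * w) * x⁻¹ ∈ D ^ᶜ g := h.cj_eq (hle hx) hxD ▸ cj_mem x (mul_mem hu hw)
    have e : u * x * u * (w * x * w) = u * (x * (u * w) * x⁻¹) * w := by rw [xi]; group
    have h5 : u * x * u * (w * x * w) ∈ S ⊓ 𝐍(D) :=
      e ▸ mul_mem (mul_mem (h.ess.lt.le hu) (h.cj_le h4)) (h.ess.lt.le hw)
    rcases h.inv_cases h5 (by
      rw [mul_assoc (u * x * u), ← mul_assoc (w * x * w), h3]
      simp only [mul_assoc, ← mul_assoc u u, u2, one_mul, ← mul_assoc x x, x2, ← mul_assoc w w, w2])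
      with e' | e' <;> rw [e] at e'
    · exact huw (h.mem_Z (hle hx) hxD (mul_mem hu hw)
        ((mul_mem_cancel_left hu).1 ((mul_mem_cancel_right hw).1 e')))
    · have := conj_mem_of_mem_normalizer (h.norm_cj (h.ess.lt.le hw)) e'
      rw [show w * (u * (x * (u * w) * x⁻¹) * w) * w⁻¹ = w * u * (x * (u * w) * x⁻¹) by group,
        mul_mem_cancel_right h4, h.ab hu w hw] at this
      exact huw (h.inter.le ⟨mul_mem hu hw, this⟩)
  rcases h.inv_cases ⟨h'.ess.le hx, hxD⟩ x2 with e | e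
  · exact Or.inl (eq_of_le_ess h.ess (h'.le_of_mem h.ess.le h.ab e hx hx') h'.ess.le h'.ab)
  · exact Or.inr (eq_of_le_ess (ess_cj h.ess (le_normalizer h.gS))
      (h'.le_of_mem (h.cj_le.trans inf_le_left) h.ab' e hx hx') h'.ess.le h'.ab)

omit [Finite G] in
theorem not_norm : ¬ S ≤ 𝐍(D) := fun e => h.gD (e h.gS)

theorem big_cj (hb : Big S D) {n : G} (hn : n ∈ 𝐍(S)) (hle : D ^ᶜ n ≤ 𝐍(S ⊓ 𝐍(D))) :
    n ∈ 𝐍(S ⊓ 𝐍(D)) := by
  obtain ⟨g', h'⟩ := exists_nn (ess_cj h.ess hn) (by rw [← cj_centralizer]; exact cj_mono _ h.ab)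
    fun e => h.not_norm (by
      rwa [← cj_normalizer, ← cj_eq_of_mem_normalizer hn, cj_le_cj_iff] at e)
  rw [← cj_eq_self_iff, cj_inf, cj_eq_of_mem_normalizer hn, cj_normalizer]
  rcases h.big_eq hb h' hle with e | e <;> rw [e]
  rw [← cj_normalizer, ← cj_eq_of_mem h.gS, ← cj_inf, cj_eq_of_mem h.gS, cj_eq_of_mem_normalizer h.gP]

theorem big_norm (hb : Big S D) : S ≤ 𝐍(S ⊓ 𝐍(D)) := by
  by_contra e
  obtain ⟨k, hk, hk'⟩ := SetLike.exists_of_lt (lt_inf_normalizer_of_lt h.ess.isP (inf_lt_left.2 e))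
  exact hk' ⟨hk.1, h.big_cj hb (le_normalizer hk.1) ((cj_le_of_mem_normalizer (h.ess.lt.le.trans
    (le_inf inf_le_left le_normalizer)) hk.2).trans inf_le_right)⟩

theorem big_le (hb : Big S D) {A : Subgroup G} (hA : A ≤ S) (hA' : A ≤ 𝐂(A)) (hn : S ≤ 𝐍(A)) :
    A ≤ 𝐍(D) := fun x hx => by
  by_contra hxD
  have hxP := h.big_norm hb (hA hx)
  have hxx : x * x ∈ S := mul_mem (hA hx) (hA hx)
  have key : ∀ u ∈ D, u * u = 1 → u ∉ ZZ S D → x * u * x⁻¹ * (x * x) ∈ D := fun u hu u2 hu' => by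
    have ui := inv_eq_of_mul_eq_one_right u2
    have h1 := hA' hx _ (conj_mem_of_mem_normalizer (hn (h.ess.le hu)) hx)
    rw [ui] at h1
    refine h.cent hu hu' ▸ mem_inf.2 ⟨mul_mem (mul_mem (mul_mem (hA hx) (h.ess.le hu))
      (inv_mem (hA hx))) hxx, mem_cent1_iff.2 ?_⟩
    calc x * u * x⁻¹ * (x * x) * u = x * (u * x * u) := by group
      _ = _ := by rw [← h1]; group
  obtain ⟨u, hu, w, hw, u2, w2, hu', hw', huw⟩ := hb
  refine huw (h.mem_Z hxP hxD (mul_mem hu hw) ?_)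
  have := mul_mem (key u hu u2 hu') (inv_mem (key w hw w2 hw'))
  rw [← inv_eq_of_mul_eq_one_right w2]
  simpa [mul_assoc] using this

theorem not_big (hS : Cx S) : ¬ Big S D := fun hb => by
  have h1 := h.big_norm hb
  refine h.not_norm ((hS.foc (S ⊓ 𝐍(D)) (fun n hn x hx => ?_) fun D' hD' n hn x hx => ?_).trans
    inf_le_right)
  · have h2 := h.big_cj hb hn ((cj_le_of_mem_normalizer h.ess.le hn).trans h1)
    by_cases e : x ∈ 𝐍(D)
    · exact cm_mem h2 ⟨hx, e⟩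
    have h3 := conj_mem_of_mem_normalizer hn hx
    refine ⟨cm_mem hn hx, cj_eq_self_iff.1 ?_⟩
    rw [cm, ← cj_cj, h.cj_eq (h1 h3) fun e' => e (by
      simpa [mul_assoc] using (conj_mem_of_mem_normalizer' h2 (mem_inf.2 ⟨h3, e'⟩)).2),
      ← h.cj_eq (h1 hx) e, cj_cj_inv]
  · refine (?_ : D' ≤ _) (cm_mem hn hx)
    by_cases e : S ≤ 𝐍(D')
    · exact le_inf hD'.le (h.big_le hb hD'.le (hS.ab D' hD') e)
    obtain ⟨g', h'⟩ := exists_nn hD' (hS.ab D' hD') e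
    rcases h.big_eq hb h' (hD'.le.trans h1) with e | e <;> rw [e]
    exacts [h.ess.lt.le, h.cj_le]

end NN

theorem Cx.ex_nn (hS : Cx S) : ∃ D g, NN S D g := by
  by_contra e
  push Not at e
  have h1 : ∀ D, Ess 2 ⊤ S D → S ≤ 𝐍(D) := fun D hD => by_contra fun e' =>
    (exists_nn hD (hS.ab D hD) e').elim (e D)
  have h2 : ∀ D D', Ess 2 ⊤ S D → Ess 2 ⊤ S D' → Nat.card D ≤ Nat.card D' → D = D' :=
    fun D D' hD hD' hc => by_contra fun hne => hS.cl (by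
      have := ((off_of hD (hS.ab D hD) (hS.ab D' hD') (le_inf hD'.le (hD'.le.trans (h1 D hD)))
        (hD.le.trans (h1 D' hD')) (fun e => hne (eq_of_le_of_card_ge e hc).symm) hc).ff
        (hS.ab D' hD')).cl
      rw [ZZ, inf_eq_left.2 (h1 D hD)] at this
      exact this.trans inf_le_right)
  have h3 : ∀ D D', Ess 2 ⊤ S D → Ess 2 ⊤ S D' → D = D' := fun D D' hD hD' =>
    (le_total _ _).elim (h2 D D' hD hD') fun e => (h2 D' D hD' hD e).symm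
  have h4 : S ⊓ 𝐂(S) ≠ ⊥ := center_ne_bot hS.isP fun e => hS.cl (by simp [e])
  by_cases h5 : ∃ D, Ess 2 ⊤ S D
  · obtain ⟨D, hD⟩ := h5
    exact h4 (eq_bot_iff.2 ((ess_center_le hD).trans (hS.nsc D hD.le (hS.ab D hD)
      (fun n hn => cj_eq_self_iff.1 (h3 _ _ (ess_cj hD hn) hD)) fun D' hD' => h3 _ _ hD hD' ▸ le_rfl).le))
  · exact h4 (hS.nsc _ inf_le_left (inf_le_right.trans (centralizer_anti inf_le_left))
      (le_normalizer_inf le_rfl (normalizer_le_normalizer_centralizer _)) fun D hD => (h5 ⟨D, hD⟩).elim)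

end H32.AI
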