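import Mathlib
import Cfsg.Agent.Base
import Cfsg.Agent.Lib.AbInt.NN
import Cfsg.Agent.Lib.Invol.Dihedral

/-! # A normal set of involutions with abelian centralizers generates a dihedral group -/

set_option autoImplicit false

namespace H32.AI

open Subgroup Cfsg H69 H59 H45 H69.SI
open scoped commutatorElement

variable {G : Type*} [Group G]

theorem exists_norm_of_set [Finite G] {p : ℕ} [Fact p.Prime] {S T : Subgroup G} (hS : IsPGroup p S)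
    {U : Set G} (hU : ∀ u ∈ U, u ∈ S) (hc : ∀ s ∈ S, ∀ u ∈ U, s * u * s⁻¹ ∈ U) (hT : T ≤ S)
    (hg : T ≤ closure (U ∩ T)) (hn : ∃ u ∈ U, u ∉ T) : ∃ w ∈ U, w ∉ T ∧ w ∈ 𝐍(T) := by
  obtain ⟨R, hR, hm⟩ := Finite.exists_le_maximal
    (p := fun R : Subgroup G => T ≤ R ∧ R ≤ S ∧ ∀ u ∈ U, u ∈ R → u ∈ T) (a := T)
    ⟨le_rfl, hT, fun _ _ h => h⟩
  have h1 : R < S := lt_of_le_of_ne hm.1.2.1 fun e => by
    obtain ⟨u, hu, hu'⟩ := hn
    exact hu' (hm.1.2.2 u hu (e ▸ hU u hu))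
  have h2 := lt_inf_normalizer_of_lt hS h1
  obtain ⟨w, hw, hw1, hw2⟩ : ∃ w ∈ U, w ∈ S ⊓ 𝐍(R) ∧ w ∉ T := by
    by_contra e
    push Not at e
    exact h2.not_ge (hm.2 ⟨hR.trans h2.le, inf_le_left, e⟩ h2.le)
  refine ⟨w, hw, hw2, mem_normalizer_of_cj_le (cj_le_iff.2 (hg.trans ((closure_le _).2 fun u hu => ?_)))⟩
  exact mem_cj.2 (by
    rw [inv_inv]; exact hm.1.2.2 _ (hc w hw1.1 u hu.1) (conj_mem_of_mem_normalizer hw1.2 (hR hu.2)))

theorem exists_four {s : G} {k : ℕ} (hk : s ^ 2 ^ k = 1) (h : s * s ≠ 1) :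
    ∃ e ∈ zpowers s, e * e * (e * e) = 1 ∧ e * e ≠ 1 := by
  obtain ⟨y, ⟨i, rfl⟩, h1, h2⟩ := exists_sq_mem (D := ⊥) k (x := s * s)
    (by rw [mem_bot, ← pow_two, ← pow_mul, mul_comm, pow_mul, hk, one_pow]) h
  simp only [(Commute.refl s).mul_zpow] at h1 h2
  exact ⟨s ^ i, zpow_mem_zpowers s i, h2, h1⟩

theorem exists_odd_inv {m : ℤ} (hm : Odd m) (k : ℕ) : ∃ a b : ℤ, a * m + b * (2 ^ k : ℕ) = 1 := by
  push_cast
  exact (IsCoprime.pow_right (Int.isCoprime_two_right.2 hm))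

/-- The involutions of the four-groups `[D, O²(N(D))]`. -/
structure UU (S : Subgroup G) (u v : G) : Prop where
  uS : u ∈ S
  u2 : u * u = 1
  v2 : v * v = 1
  v1 : v ≠ 1
  vD : v ∈ S ⊓ 𝐂[u]
  ab : S ⊓ 𝐂[u] ≤ 𝐂(S ⊓ 𝐂[u])
  cj : ∀ s ∈ S, s * u * s⁻¹ ∈ 𝐂[u] → (s * u * s⁻¹ = u ∨ s * u * s⁻¹ = u * v) ∧ s * v * s⁻¹ = v
  nsq : ∀ d ∈ S ⊓ 𝐂[u], d * d ≠ v
  ex : ∃ g ∈ S, u * (g * u * g⁻¹) * (u * (g * u * g⁻¹)) = v
  vc : ∀ n ∈ 𝐍(S ⊓ 𝐂[u]), n * v * n⁻¹ = v ∨ n * v * n⁻¹ = u ∨ n * v * n⁻¹ = u * v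
  uy : ∃ y ∈ 𝐍(S ⊓ 𝐂[u]), y * v * y⁻¹ = u

namespace UU

variable {S : Subgroup G} {u v u' v' : G} (h : UU S u v)
include h

theorem conj {n : G} (hn : n ∈ 𝐍(S)) : UU S (n * u * n⁻¹) (n * v * n⁻¹) := by
  have e : S ⊓ 𝐂[n * u * n⁻¹] = (S ⊓ 𝐂[u]) ^ᶜ n := by
    rw [cj_inf, cj_eq_of_mem_normalizer hn, cj_centralizer_singleton]
  have e1 : ∀ s x, s * (n * x * n⁻¹) * s⁻¹ = n * (n⁻¹ * s * n * x * (n⁻¹ * s * n)⁻¹) * n⁻¹ :=
    fun s x => by group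
  refine ⟨conj_mem_of_mem_normalizer hn h.uS, by rw [conj_mul, h.u2]; group,
    by rw [conj_mul, h.v2]; group, fun e => h.v1 (conj_eq_one_iff.1 e), e ▸ cj_mem n h.vD, ?_,
    fun s hs hc => ?_, fun d hd => ?_, ?_, fun m hm => ?_, ?_⟩
  · rw [e, ← cj_centralizer]; exact cj_mono n h.ab
  · rw [e1, ← cj_centralizer_singleton, cj_mem_iff] at hc
    obtain ⟨h1, h2⟩ := h.cj _ (conj_mem_of_mem_normalizer' hn hs) hc
    rw [e1 s u, e1 s v, h2, conj_mul]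
    exact ⟨h1.imp (fun e => by rw [e]) fun e => by rw [e], rfl⟩
  · rw [e] at hd
    obtain ⟨d, hd', rfl⟩ := mem_cj'.1 hd
    rw [conj_mul]
    exact fun e => h.nsq d hd' (by simpa using e)
  · obtain ⟨g, hg, e⟩ := h.ex
    exact ⟨n * g * n⁻¹, conj_mem_of_mem_normalizer hn hg, by rw [← e]; group⟩
  · rw [e, ← cj_normalizer, mem_cj] at hm
    rw [e1 m v, conj_mul]
    exact (h.vc _ hm).imp (fun e => by rw [e]) (Or.imp (fun e => by rw [e]) fun e => by rw [e])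
  · obtain ⟨y, hy, e'⟩ := h.uy
    exact ⟨n * y * n⁻¹, by rw [e, ← cj_normalizer]; exact cj_mem n hy, by rw [← e']; group⟩

theorem dv {w e : G} (hw : w ∈ S) (w2 : w * w = 1) (he : e ∈ zpowers (u * w))
    (h1 : e * e * (e * e) = 1) (h2 : e * e ≠ 1) : e * e = v := by
  have h3 : u * e * u⁻¹ = e⁻¹ := by
    obtain ⟨i, rfl⟩ := he
    exact H9.conj_zpow_of_inverts (H9.left_inverts h.u2 w2) i
  have h4 : e * u * e⁻¹ = e * e * u := by
    rw [mul_assoc, mul_assoc, mul_right_inj, ← h3, ← mul_assoc, ← mul_assoc, h.u2, one_mul,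
      inv_eq_of_mul_eq_one_right h.u2]
  have h5 : e * e * u = u * (e * e) := by
    rw [eq_comm, ← mul_inv_eq_iff_eq_mul, ← conj_mul, h3, ← mul_inv_rev, inv_eq_of_mul_eq_one_right h1]
  rcases (h.cj e (zpowers_le.2 (mul_mem h.uS hw) he) (mem_cent1_iff.2 (by
    rw [h4, ← mul_assoc u, ← h5]))).1 with e' | e' <;> rw [h4] at e'
  · exact absurd (mul_eq_right.1 e') h2
  · rwa [h5, mul_right_inj] at e'

theorem not_comm {g : G} (e : u * (g * u * g⁻¹) * (u * (g * u * g⁻¹)) = v) :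
    u * (g * u * g⁻¹) ≠ g * u * g⁻¹ * u := fun e' => h.v1 (by
  rw [← e, mul_assoc u, ← mul_assoc _ u, ← e', mul_assoc u, conj_mul, h.u2, ← mul_assoc, h.u2]; group)

theorem cent_eq (h' : UU S u' v') (e : u * u' = u' * u) : S ⊓ 𝐂[u] = S ⊓ 𝐂[u'] :=
  le_antisymm (le_inf inf_le_left fun d hd => mem_cent1_iff.2
    (h.ab (mem_inf.2 ⟨h'.uS, mem_cent1_iff.2 e.symm⟩) d hd))
    (le_inf inf_le_left fun d hd => mem_cent1_iff.2 (h'.ab (mem_inf.2 ⟨h.uS, mem_cent1_iff.2 e⟩) d hd))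

theorem sq_ne (h' : UU S u' v') (e : u * u' ≠ u' * u) : u * u' * (u * u') ≠ 1 := fun e' => e (by
  rw [← inv_eq_of_mul_eq_one_right e', mul_inv_rev, inv_eq_of_mul_eq_one_right h.u2,
    inv_eq_of_mul_eq_one_right h'.u2])

variable (hS : IsPGroup 2 S)
include hS

theorem exists_e (h' : UU S u' v') (e : u * u' ≠ u' * u) :
    ∃ e ∈ zpowers (u * u'), e * e = v ∧ e * e = v' := by
  obtain ⟨k, hk⟩ := isPGroup_iff_mem.1 hS _ (mul_mem h.uS h'.uS)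
  obtain ⟨e, he, h1, h2⟩ := exists_four hk (h.sq_ne h' e)
  refine ⟨e, he, h.dv h'.uS h'.u2 he h1 h2, h'.dv h.uS h.u2 ?_ h1 h2⟩
  rwa [← zpowers_inv, mul_inv_rev, inv_eq_of_mul_eq_one_right h.u2, inv_eq_of_mul_eq_one_right h'.u2]

theorem v_cent {s : G} (hs : s ∈ S) : s * v * s⁻¹ = v := by
  by_cases e : u * (s * u * s⁻¹) = s * u * s⁻¹ * u
  · exact (h.cj s hs (mem_cent1_iff.2 e.symm)).2
  · obtain ⟨e, -, h1, h2⟩ := h.exists_e hS (h.conj (le_normalizer hs)) e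
    rw [← h2, h1]

theorem conj' {s : G} (hs : s ∈ S) : UU S (s * u * s⁻¹) v :=
  h.v_cent hS hs ▸ h.conj (le_normalizer hs)

theorem v_eq (h' : UU S u' v') : v = v' := by
  obtain ⟨g, hg, e⟩ := h'.ex
  have h1 := h'.conj' hS hg
  by_cases e1 : u * u' = u' * u
  · by_cases e2 : u * (g * u' * g⁻¹) = g * u' * g⁻¹ * u
    · exact absurd (h.ab (mem_inf.2 ⟨h1.uS, mem_cent1_iff.2 e2.symm⟩) _
        (mem_inf.2 ⟨h'.uS, mem_cent1_iff.2 e1.symm⟩)) (h'.not_comm e)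
    · obtain ⟨e, -, h1, h2⟩ := h.exists_e hS h1 e2
      rw [← h2, h1]
  · obtain ⟨e, -, h1, h2⟩ := h.exists_e hS h' e1
    rw [← h2, h1]

theorem conj'' {n : G} (hn : n ∈ 𝐍(S)) : UU S (n * u * n⁻¹) v :=
  h.v_eq hS (h.conj hn) ▸ h.conj hn

theorem ne_v : u ≠ v := fun e => by
  obtain ⟨g, hg, e'⟩ := h.ex
  refine h.not_comm e' ?_
  rw [e, h.v_cent hS hg]

theorem comm_cases (h' : UU S u' v) (e : u * u' = u' * u) : u' = u ∨ u' = u * v := by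
  obtain ⟨y, hy, e'⟩ := h'.uy
  rw [← h.cent_eq h' e] at hy
  have := h.vc y hy
  rw [e'] at this
  exact this.resolve_left (h'.ne_v hS)

theorem refl (h' : UU S u' v) (i : ℤ) : UU S ((u * u') ^ i * u) v := by
  have hs := mul_mem h.uS h'.uS
  obtain ⟨j, rfl | rfl⟩ := Int.even_or_odd' i
  · rw [← H9.zpow_conj_left h.u2 h'.u2]; exact h.conj' hS (zpow_mem hs j)
  · have := (h'.conj' hS h.uS).conj' hS (zpow_mem hs j)
    rwa [inv_eq_of_mul_eq_one_right h.u2, mul_assoc _ (u * u' * u), mul_assoc (u * u'), ← zpow_neg,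
      H9.left_mul_zpow h.u2 h'.u2, neg_neg, ← mul_assoc, ← mul_assoc, ← zpow_add_one, ← zpow_add,
      show j + 1 + j = 2 * j + 1 by ring] at this

variable [Finite G]

theorem refl_of_mem (h' : UU S u' v) (hn : u * u' ≠ u' * u) {r : G} (hr : UU S r v)
    (hT : r ∈ closure {u, u'}) : ∃ i : ℤ, r = (u * u') ^ i * u := by
  obtain ⟨i, e | e⟩ := (H9.mem_closure_pair_iff h.u2 h'.u2 r).1 hT
  · obtain ⟨e', he, h1, -⟩ := h.exists_e hS h' hn
    obtain ⟨g, -, h2⟩ := hr.ex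
    refine absurd ?_ (hr.ne_v hS)
    rw [(H9.eq_pow_half_of_mem_zpowers (H9.orderOf_eq_two_of_mul_self (fun e => hr.not_comm h2 (by
      simp [e])) hr.u2) (e ▸ zpow_mem_zpowers _ i)).2, (H9.eq_pow_half_of_mem_zpowers
      (H9.orderOf_eq_two_of_mul_self h.v1 h.v2) (h1 ▸ mul_mem he he)).2]
  · exact ⟨i, e⟩

theorem dihedral : ∃ a b, UU S a v ∧ UU S b v ∧ a * b ≠ b * a ∧
    ∀ w, UU S w v → w ∈ closure {a, b} := by
  obtain ⟨g, hg, e⟩ := h.ex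
  obtain ⟨⟨a, b⟩, ⟨ha, hb, hn⟩, hm⟩ := Set.exists_max_image
    {x : G × G | UU S x.1 v ∧ UU S x.2 v ∧ x.1 * x.2 ≠ x.2 * x.1} (fun x => orderOf (x.1 * x.2))
    (Set.toFinite _) ⟨(u, g * u * g⁻¹), h, h.conj' hS hg, h.not_comm e⟩
  simp only at ha hb hn
  refine ⟨a, b, ha, hb, hn, ?_⟩
  by_contra hc
  push Not at hc
  have haT : a ∈ closure {a, b} := subset_closure (by simp)
  have hbT : b ∈ closure {a, b} := subset_closure (by simp)
  have hsT : zpowers (a * b) ≤ closure {a, b} := zpowers_le.2 (mul_mem haT hbT)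
  obtain ⟨w, hw, hwT, hwN⟩ := exists_norm_of_set hS (U := {w | UU S w v}) (T := closure {a, b})
    (fun _ h => h.uS) (fun s hs _ h => h.conj' hS hs) (by
      rw [closure_le, Set.insert_subset_iff, Set.singleton_subset_iff]; exact ⟨ha.uS, hb.uS⟩)
    (closure_mono (by
      rw [Set.insert_subset_iff, Set.singleton_subset_iff]; exact ⟨⟨ha, haT⟩, hb, hbT⟩)) hc
  replace hw : UU S w v := hw
  obtain ⟨e, he, he2, -⟩ := ha.exists_e hS hb hn
  obtain ⟨k, hk⟩ := isPGroup_iff_mem.1 hS _ (mul_mem ha.uS hb.uS)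
  have hk' : (a * b) ^ ((2 ^ k : ℕ) : ℤ) = 1 := by rw [zpow_natCast, hk]
  have nc : ∀ r, UU S r v → r ∈ closure {a, b} → w * r ≠ r * w := fun r hr hT e' => hwT (by
    rcases hr.comm_cases hS hw e'.symm with e'' | e'' <;> rw [e'']
    exacts [hT, mul_mem hT (hsT (he2 ▸ mul_mem he he))])
  have ev : ∀ r, UU S r v → r ∈ closure {a, b} → ∃ j : ℤ, w * r * w⁻¹ = (a * b) ^ (2 * j) * r :=
    fun r hr hT => by
      obtain ⟨i, e1⟩ := ha.refl_of_mem hS hb hn hr hT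
      obtain ⟨j, e2⟩ := ha.refl_of_mem hS hb hn (hr.conj' hS hw.uS) (conj_mem_of_mem_normalizer hwN hT)
      have e3 : w * r * w⁻¹ = (a * b) ^ (j - i) * r := by rw [e2, e1, ← mul_assoc, ← zpow_add]; simp
      rcases Int.even_or_odd (j - i) with ⟨m, hm'⟩ | ho
      · exact ⟨m, by rw [e3, hm', two_mul]⟩
      obtain ⟨x, y, hxy⟩ := exists_odd_inv ho k
      have e4 : a * b ∈ zpowers (w * r) := by
        have : (a * b) ^ (j - i) = w * r * (w * r) := by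
          rw [← mul_inv_eq_iff_eq_mul, inv_eq_of_mul_eq_one_right hw.u2,
            inv_eq_of_mul_eq_one_right hr.u2] at e3
          rw [← e3, mul_assoc]
        rw [← zpow_one (a * b), ← hxy, zpow_add, mul_comm x, mul_comm y, zpow_mul, zpow_mul, hk', this,
          one_zpow, mul_one]
        exact zpow_mem (mul_mem (mem_zpowers _) (mem_zpowers _)) x
      have e5 : zpowers (a * b) = zpowers (w * r) := eq_of_le_of_card_ge (zpowers_le.2 e4) (by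
        rw [Nat.card_zpowers, Nat.card_zpowers]; exact hm (w, r) ⟨hw, hr, nc r hr hT⟩)
      exact absurd ((mul_mem_cancel_right hT).1 (hsT (e5 ▸ mem_zpowers _))) hwT
  obtain ⟨i, hi⟩ := ev a ha haT
  obtain ⟨j, hj⟩ := ev b hb hbT
  have h1 : w * (a * b) * w⁻¹ = (a * b) ^ (2 * (i - j) + 1) := by
    rw [← conj_mul, hi, hj, mul_assoc, ← mul_assoc a, H9.left_mul_zpow ha.u2 hb.u2, mul_assoc,
      ← mul_assoc, ← zpow_add, ← zpow_add_one]
    congr 1; ring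
  have h2 : ∀ m : ℤ, w * (a * b) ^ m * w⁻¹ = (a * b) ^ ((2 * (i - j) + 1) * m) := fun m => by
    rw [zpow_mul, ← h1, conj_zpow]
  rcases Int.even_or_odd (i - j) with ⟨m, hm'⟩ | ho
  · obtain ⟨l, rfl⟩ := he
    simp only at he2
    refine hw.nsq _ ⟨zpow_mem (mul_mem ha.uS hb.uS) l, mem_cent1_iff.2 ?_⟩ he2
    have h3 : (a * b) ^ (l * 4) = 1 := by
      rw [← h.v2, ← he2, ← zpow_add, ← zpow_add]; congr 1; ring
    rw [eq_comm, ← mul_inv_eq_iff_eq_mul, h2, hm', show (2 * (m + m) + 1) * l = l * 4 * m + l by ring,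
      zpow_add, zpow_mul, h3, one_zpow, one_mul]
  · obtain ⟨x, y, hxy⟩ := exists_odd_inv ho k
    refine nc _ (ha.refl hS hb (-x * i)) (mul_mem (hsT (zpow_mem_zpowers _ _)) haT) ?_
    rw [← mul_inv_eq_iff_eq_mul, ← conj_mul, h2, hi, ← mul_assoc, ← zpow_add,
      show (2 * (i - j) + 1) * (-x * i) + 2 * i = (2 ^ k : ℕ) * (2 * i * y) + -x * i by
        linear_combination (-2 * i) * hxy, zpow_add, zpow_mul, hk', one_zpow, one_mul]

end UU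

end H32.AI
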