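import Mathlib
import Cfsg.Agent.Base
import Cfsg.Agent.Lib.AbInt.Big
import Cfsg.Agent.Lib.AbInt.Dih
import Cfsg.Agent.Lib.TwoFusion.Tools

/-! # Abelian essential subgroups: the case `q = 2` -/

set_option autoImplicit false

namespace H32.AI

open Subgroup Cfsg H69 H59 H45 H69.SI
open scoped commutatorElement

variable {G : Type*} [Group G]

/-- The shape of a non-normal abelian essential subgroup for `q = 2`. -/
structure SM (S D : Subgroup G) (u v : G) : Prop where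
  uu : UU S u v
  eq : S ⊓ 𝐂[u] = D
  zdec : ∀ z ∈ ZZ S D, z ∈ Z0 S D ∨ v * z ∈ Z0 S D
  ddec : ∀ d ∈ D, d ∈ ZZ S D ∨ u * d ∈ ZZ S D
  zc : ∀ c ∈ S, (∀ s ∈ S, s * u * s⁻¹ * c = c * (s * u * s⁻¹)) → c ∈ ZZ S D

variable [Finite G] {S D D' : Subgroup G} {g u v : G}

theorem NN.sm (h : NN S D g) (hb : ¬ Big S D) : ∃ u v, SM S D u v := by
  have mulZ : ∀ d ∈ D, d ∉ ZZ S D → ∀ d' ∈ D, d' ∉ ZZ S D → d * d' ∈ ZZ S D := fun d hd h1 d' hd' h2 => by
    obtain ⟨a, ha, a2, e⟩ := h.dec d hd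
    obtain ⟨b, hb', b2, e'⟩ := h.dec d' hd'
    replace e := Z0_le S D e
    replace e' := Z0_le S D e'
    have h3 : a * b ∈ ZZ S D := by_contra fun h3 => hb ⟨a, ha, b, hb', a2, b2,
      fun h4 => h1 ((mul_mem_cancel_left h4).1 e), fun h4 => h2 ((mul_mem_cancel_left h4).1 e'), h3⟩
    have := mul_mem e e'
    rwa [mul_assoc, ← mul_assoc d, h.ab hb' d hd, mul_assoc, ← mul_assoc, mul_mem_cancel_left h3] at this
  have mulP : ∀ x ∈ S ⊓ 𝐍(D), x ∉ D → ∀ x' ∈ S ⊓ 𝐍(D), x' ∉ D → x⁻¹ * x' ∈ D :=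
    fun x hx h1 x' hx' h2 => by
    have key : ∀ x ∈ S ⊓ 𝐍(D), x ∉ D → ∃ a ∈ D, a ∉ ZZ S D ∧ ∃ d ∈ D, x = g * a * g⁻¹ * d :=
      fun x hx h1 => by
        obtain ⟨a, ha, d, hd, rfl⟩ := (mem_sup_of_le_normalizer_right
          (h.cj_le.trans inf_le_right)).1 (h.sup ▸ hx)
        obtain ⟨a, ha', rfl⟩ := mem_cj'.1 ha
        exact ⟨a, ha', fun e => h1 (mul_mem (conj_mem_of_mem_normalizer (h.norm_ZZ h.gP) e).1 hd),
          d, hd, rfl⟩
    obtain ⟨a, ha, ha', d, hd, rfl⟩ := key x hx h1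
    obtain ⟨b, hb, hb', c, hc, rfl⟩ := key x' hx' h2
    have := mul_mem (mul_mem (inv_mem hd) (mem_inf.1 (conj_mem_of_mem_normalizer (h.norm_ZZ h.gP)
      (mulZ _ (inv_mem ha) (fun e => ha' (inv_mem_iff.1 e)) b hb hb'))).1) hc
    simpa [mul_assoc] using this
  obtain ⟨u0, hu0, -, hu0'⟩ := h.exists_inv
  have hout : ∀ u ∈ D, u ∉ ZZ S D → g * u * g⁻¹ ∈ S ⊓ 𝐍(D) ∧ g * u * g⁻¹ ∉ D := fun u hu hu' =>
    ⟨h.cj_le (cj_mem g hu), fun e => hu' (h.mem_Z h.gP h.gD hu e)⟩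
  obtain ⟨hx0, hx0'⟩ := hout u0 hu0 hu0'
  have cmv : ∀ x ∈ S ⊓ 𝐍(D), x ∉ D → ∀ d ∈ D, d ∉ ZZ S D → cm x d = cm (g * u0 * g⁻¹) u0 :=
    fun x hx h1 d hd h2 => by
      rw [← cm_mul_left ((mulZ d hd h2 _ (inv_mem hu0) fun e => hu0' (inv_mem_iff.1 e)).2 _ hx0) u0,
        inv_mul_cancel_right, ← cm_mul_right (h.ab hd _ (mulP _ hx0 hx0' x hx h1)) (g * u0 * g⁻¹),
        mul_inv_cancel_left]
  have v1 := h.nm _ hx0 hx0' u0 hu0 hu0'
  have vZ := h.quad _ hx0 u0 hu0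
  have v2 := h.cm_sq hx0 hu0
  generalize cm (g * u0 * g⁻¹) u0 = v at cmv v1 vZ v2
  have cmc : ∀ x ∈ S ⊓ 𝐍(D), ∀ d ∈ D, cm x d = 1 ∨ cm x d = v := fun x hx d hd => by
    by_cases h1 : x ∈ D
    · exact Or.inl (cm_eq_one.2 (h.ab hd x h1))
    by_cases h2 : d ∈ ZZ S D
    · exact Or.inl (cm_eq_one.2 (h2.2 x hx))
    exact Or.inr (cmv x hx h1 d hd h2)
  have cjc : ∀ x ∈ S ⊓ 𝐍(D), ∀ d ∈ D, x * d * x⁻¹ = d ∨ x * d * x⁻¹ = d * v := fun x hx d hd =>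
    (cmc x hx d hd).imp (fun e => by rw [← mul_cm, e, mul_one]) fun e => by rw [← mul_cm, e]
  have hM : essGen ⊤ S D ≤ 𝐂[v] := essGen_le_iff.2 ⟨fun c hc => mem_cent1_iff.2 (hc.2 v vZ.1).symm,
    fun P h1 h2 n hn => by
      obtain ⟨x, hx, hx'⟩ := SetLike.exists_of_lt h1
      have hn1 : n ∈ 𝐍(D) := hn.1.2
      rw [mem_cent1_iff, ← mul_inv_eq_iff_eq_mul]
      conv_lhs => rw [← cmv x (h2 hx) hx' u0 hu0 hu0', conj_cm]
      refine cmv _ (h2 (conj_mem_of_mem_normalizer hn.2 hx)) (fun e => hx' ?_) _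
        (conj_mem_of_mem_normalizer hn1 hu0) fun e => hu0' ?_
      · simpa [mul_assoc] using conj_mem_of_mem_normalizer' hn1 e
      · simpa [mul_assoc] using conj_mem_of_mem_normalizer' (h.mZ (le_essGen_of_lt h1 h2 hn)) e⟩
  obtain ⟨y, hy⟩ := exists_out h.ess
  have hu := conj_mem_of_mem_normalizer hy.1 vZ.1
  have hu' : y * v * y⁻¹ ∉ ZZ S D := fun e => v1 (h.z0 _ hy.inv ⟨vZ, mem_cj.2 (by rwa [inv_inv])⟩)
  have u2 : y * v * y⁻¹ * (y * v * y⁻¹) = 1 := by rw [conj_mul, v2]; group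
  have hc := h.cent hu hu'
  generalize hyu : y * v * y⁻¹ = u at hu hu' u2 hc
  obtain ⟨hx, hx'⟩ := hout u hu hu'
  refine ⟨u, v, ⟨h.ess.le hu, u2, v2, fun e => v1 (e ▸ one_mem _), hc ▸ vZ.1, hc ▸ h.ab,
    fun s hs e => ?_, fun d hd e => v1 (e ▸ h.sq d (hc ▸ hd)), ⟨g, h.gS, ?_⟩, fun n hn => ?_,
    ⟨y, hc ▸ hy.1, hyu⟩⟩, hc, fun z hz => ?_, fun d hd => or_iff_not_imp_left.2 (mulZ u hu hu' d hd),
    fun c hcS e => ?_⟩
  · have h1 : s * u * s⁻¹ ∈ D := hc ▸ mem_inf.2 ⟨mul_mem (mul_mem hs (h.ess.le hu)) (inv_mem hs), e⟩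
    have h2 : s ∈ 𝐍(D) := inv_mem_iff.1 (mem_normalizer_of_cj_le (h.le_of_mem
      (cj_le_of_mem h.ess.le (inv_mem hs)) (by rw [← cj_centralizer]; exact cj_mono _ h.ab)
      (mem_cj.2 (by rwa [inv_inv])) hu hu'))
    exact ⟨cjc s ⟨hs, h2⟩ u hu, by rw [vZ.2 s ⟨hs, h2⟩, mul_inv_cancel_right]⟩
  · rw [← cmv _ hx hx' u hu hu']
    simp only [cm, mul_inv_rev, inv_inv, inv_eq_of_mul_eq_one_right u2, mul_assoc]
  · rw [hc] at hn
    by_cases e : n ∈ essGen ⊤ S D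
    · exact Or.inl (by rw [mem_cent1_iff.1 (hM e), mul_inv_cancel_right])
    obtain ⟨a, ha, e'⟩ := h.two y n hy ⟨hn, e⟩
    have := mem_cent1_iff.1 (hM e')
    rw [show n * v * n⁻¹ = a * y * ((a * y)⁻¹ * n * v) * n⁻¹ by group, this,
      show a * y * (v * ((a * y)⁻¹ * n)) * n⁻¹ = a * (y * v * y⁻¹) * a⁻¹ by group, hyu]
    exact Or.inr (cjc a ha u hu)
  · obtain ⟨x, hx, e⟩ := h.surj u hu hu' z hz
    refine (cmc x hx u hu).imp (fun e' => ?_) fun e' => ?_ <;> rw [e'] at e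
    · simpa using e
    · rwa [inv_eq_of_mul_eq_one_right v2] at e
  · have h1 : c ∈ D := hc ▸ ⟨hcS, mem_cent1_iff.2 (by simpa using (e 1 (one_mem _)).symm)⟩
    exact by_contra fun e' => h.nm _ hx hx' c h1 e' (by rw [cm_eq_one.2 (e g h.gS)]; exact one_mem _)

omit [Finite G] in
theorem mem_zpowers_two (h : u * u = 1) {a : G} (ha : a ∈ zpowers u) : a = 1 ∨ a = u := by
  obtain ⟨i, rfl⟩ := ha
  obtain ⟨j, rfl | rfl⟩ := Int.even_or_odd' i
  · exact Or.inl (by simp only; rw [zpow_mul, zpow_two, h, one_zpow])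
  · exact Or.inr (by simp only; rw [zpow_add_one, zpow_mul, zpow_two, h, one_zpow, one_mul])

theorem UU.not_normal (h : UU S u v) (hD : Ess 2 ⊤ S D) (ab : D ≤ 𝐂(D)) : ¬ S ≤ 𝐍(D) := fun hn => by
  obtain ⟨g, hg, e⟩ := h.ex
  have ui := inv_eq_of_mul_eq_one_right h.u2
  have huD : u ∉ D := fun e' => h.not_comm e (ab (conj_mem_of_mem_normalizer (hn hg) e') u e')
  have huW := norm_zo D (hn h.uS)
  have cmc : ∀ d ∈ zo D, cm u d = 1 ∨ cm u d = v := fun d hd => by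
    have h1 := (cm_mem huW hd).2
    have h2 : cm u d = d⁻¹ * u * d⁻¹⁻¹ * u := by simp only [cm, ui, inv_inv, mul_assoc]
    rw [h2] at h1 ⊢
    rcases (h.cj _ (inv_mem (hD.le (zo_le D hd))) (mem_cent1_iff.2 (by
      rw [← inv_eq_of_mul_eq_one_right h1]; simp only [mul_inv_rev, ui, inv_inv, mul_assoc]))).1
      with e | e <;> rw [e]
    · exact Or.inl h.u2
    · exact Or.inr (by rw [mul_assoc, mem_cent1_iff.1 h.vD.2, ← mul_assoc, h.u2, one_mul])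
  have hO : Off S D (zo D) (zpowers u) := by
    refine ⟨hD, zo_le D, ab, norm_zo D, ?_, zpowers_le.2 ⟨h.uS, hn h.uS⟩,
      fun e => huD (e (mem_zpowers u)), fun a ha d hd => ?_, ?_⟩
    · refine (hD.isSylowIn_inf (le_inf le_top inf_le_left) (inf_le_right.trans (le_normalizer_inf
        le_normalizer (le_normalizer_centralizer (norm_zo D))))).eq_of_res_le
        ((inf_le_inf_left S inf_le_left).trans hD.sylow_le) (res_le_iff.2 fun x hx ho =>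
          centralizer_le_essGen ⟨mem_top x, fun d hd => ?_⟩)
      obtain ⟨k, hk⟩ := isPGroup_iff_mem.1 hD.isP d (hD.le hd)
      have := H41.aut_eq_of_omega (Nat.coprime_two_right.1 ho) (H41.conj_pow_orderOf x) (U := D)
        (fun a ha b hb => ab hb a ha) (fun a ha => conj_mem_of_mem_normalizer hx.1 ha)
        (fun a ha a2 => conj_eq_of_mem_centralizer hx.2 ⟨⟨ha, ab ha⟩, a2⟩) k d hd hk
      exact (mul_inv_eq_iff_eq_mul.1 this).symm
    · rw [centralizer_zpowers]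
      rcases mem_zpowers_two h.u2 ha with rfl | rfl
      · simp [cm]
      rcases cmc d hd with e | e <;> rw [e]
      exacts [one_mem _, h.vD.2]
    · classical
      rw [centralizer_zpowers]
      refine (relIndex_le_of_map (fun d => if u * d = d * u then 1 else u) (fun a _ => ?_)
        fun a ha b hb e => ?_).1
      · split_ifs
        exacts [one_mem _, mem_zpowers u]
      split_ifs at e with h1 h2 h2
      · exact mul_mem (inv_mem (mem_cent1_iff.2 h1.symm)) (mem_cent1_iff.2 h2.symm)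
      · exact absurd (by simpa using e) huD
      · exact absurd (by simpa using e) huD
      rw [mem_cent1_iff, eq_comm, ← cm_eq_one, inv_eq_of_mul_eq_one_right ha.2,
        cm_mul ab (hn h.uS) (zo_le D ha) (zo_le D hb), (cmc a ha).resolve_left (mt cm_eq_one.1 h1),
        (cmc b hb).resolve_left (mt cm_eq_one.1 h2), h.v2]
  obtain ⟨a, ha, he⟩ := hO.syl (s := g * u * g⁻¹) (conj_mem_of_mem_normalizer
    (by rw [inf_eq_left.2 hn]; exact le_normalizer hg) (hO.EP (mem_zpowers u)))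
  rcases mem_zpowers_two h.u2 ha with rfl | rfl
  · exact huD (by simpa [mul_assoc] using conj_mem_of_mem_normalizer' (hn hg) he)
  rw [ui] at he
  obtain ⟨d, hd, hd'⟩ := hO.exists_d
  obtain ⟨y, hy⟩ := exists_out hD
  have h1 := hO.cm_not_mem hy hd hd' (mem_zpowers a) huD
  have h2 := cm_mem huW hd
  rw [centralizer_zpowers, mem_cent1_iff] at hd'
  rw [(cmc d hd).resolve_left fun e => hd' (cm_eq_one.1 e).symm] at h1 h2
  have h3 := conj_mem_of_mem_normalizer' (norm_zo D hy.1) h2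
  have h4 := (cmc _ h3).resolve_left fun e => h1 (mem_cj.2 ⟨h3, by
    rw [centralizer_zpowers]; exact mem_cent1_iff.2 (cm_eq_one.1 e).symm⟩)
  have h5 := conj_mem_of_mem_normalizer' hy.1 he
  have h6 : y⁻¹ * (a * (g * a * g⁻¹)) * y * (y⁻¹ * (a * (g * a * g⁻¹)) * y) = y⁻¹ * v * y := by
    rw [← e]; group
  generalize y⁻¹ * (a * (g * a * g⁻¹)) * y = c at h5 h6
  have h7 := conj_mem_of_mem_normalizer (hn h.uS) h5
  refine h.nsq (c * (a * c * a⁻¹)) ⟨hD.le (mul_mem h5 h7), mem_cent1_iff.2 ?_⟩ ?_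
  · rw [eq_comm, ← mul_inv_eq_iff_eq_mul, ← conj_mul, ← ab h5 _ h7, mul_right_inj, ui]
    simp only [mul_assoc, ← mul_assoc a a, h.u2, one_mul, mul_one]
  · rw [cm, inv_eq_of_mul_eq_one_right h3.2] at h4
    rw [mul_assoc, ← mul_assoc _ c, ab h5 _ h7, mul_assoc c, conj_mul, ← mul_assoc, h6, h4]

end H32.AI
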