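import Mathlib
import Cfsg.Agent.Base
import Cfsg.Agent.Lib.AbInt.Small
import Cfsg.Agent.Lib.Gold.Basic1

/-! # Fusion with abelian essential subgroups: the Sylow 2-subgroup is dihedral -/

set_option autoImplicit false

namespace H32.AI

open Subgroup Cfsg H69 H59 H45 H69.SI
open scoped commutatorElement

variable {G : Type*} [Group G] [Finite G] {S D : Subgroup G}

theorem Cx.fac (hS : Cx S) (hD : Ess 2 ⊤ S D) {n : G} (hn : n ∈ 𝐍(D)) :
    ∃ k ∈ 𝐂(Z0 S D), ∃ a ∈ 𝐍(S), a ∈ 𝐍(D) ∧ n = k * a := by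
  have h1 : ncl (S ⊓ 𝐍(D)) 𝐍(D) ≤ 𝐍(D) := ncl_le_self inf_le_right
  obtain ⟨k, hk, a, ha, e⟩ := (hD.extr.syl.mono (le_ncl _ 𝐍(D)) (le_inf le_top h1)).frattini
    (le_normalizer_ncl _ _ hn)
  exact ⟨k, centsC.1 inf_le_right hk, a, hS.nP _ inf_le_left (fun e => hD.lt.not_ge ((le_inf inf_le_left
    (e.trans (centralizer_anti hD.lt.le))).trans hD.centric)) ha,
    (mul_mem_cancel_left (h1 hk)).1 (e ▸ hn), e⟩

theorem Cx.dihedral (hS : Cx S) : ∃ a b : G, a * a = 1 ∧ b * b = 1 ∧ a * b * (a * b) ≠ 1 ∧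
    S = closure {a, b} := by
  obtain ⟨D0, g0, h0⟩ := hS.ex_nn
  obtain ⟨u0, v, h0⟩ := h0.sm (h0.not_big hS)
  have hall : ∀ D, Ess 2 ⊤ S D → ∃ u, SM S D u v := fun D hD => by
    obtain ⟨g, h⟩ := exists_nn hD (hS.ab D hD) (h0.uu.not_normal hD (hS.ab D hD))
    obtain ⟨u, v', h⟩ := h.sm (h.not_big hS)
    exact ⟨u, h0.uu.v_eq hS.isP h.uu ▸ h⟩
  obtain ⟨a, b, ha, hb, hn, hT⟩ := h0.uu.dihedral hS.isP
  refine ⟨a, b, ha.u2, hb.u2, ha.sq_ne hb hn, ?_⟩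
  have haT : a ∈ closure {a, b} := subset_closure (by simp)
  have hbT : b ∈ closure {a, b} := subset_closure (by simp)
  have hle : ∀ K : Subgroup G, a ∈ K → b ∈ K → closure {a, b} ≤ K := fun K h1 h2 => by
    rw [closure_le, Set.insert_subset_iff, Set.singleton_subset_iff]; exact ⟨h1, h2⟩
  have hvT : v ∈ closure {a, b} := by
    obtain ⟨e, he, h1, -⟩ := ha.exists_e hS.isP hb hn
    exact h1 ▸ zpowers_le.2 (mul_mem haT hbT) (mul_mem he he)
  have hodd : ∀ h ∈ 𝐍(S), Odd (orderOf h) → h ∈ 𝐂(closure {a, b}) := fun h hh ho => by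
    obtain ⟨k, hk⟩ := isPGroup_iff_mem.1 hS.isP _ (mul_mem ha.uS hb.uS)
    have h1 := ha.conj'' hS.isP hh
    have h2 := hb.conj'' hS.isP hh
    have h3 : h * (a * b) * h⁻¹ = a * b := by
      refine H41.aut_eq_of_mem_zpowers ho (H41.conj_pow_orderOf h) k hk ?_
      obtain ⟨i, e | e⟩ := (H9.mem_closure_pair_iff ha.u2 hb.u2 _).1 (mul_mem (hT _ h1) (hT _ h2))
      · rw [conj_mul] at e
        exact ⟨i, e.symm⟩
      · have := H9.zpow_mul_left_mul_self ha.u2 hb.u2 i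
        rw [← e, conj_mul, conj_mul, conj_eq_one_iff] at this
        exact absurd this (ha.sq_ne hb hn)
    have h4 : h * a * h⁻¹ = a := by
      obtain ⟨i, e⟩ := ha.refl_of_mem hS.isP hb hn h1 (hT _ h1)
      refine H41.aut_eq_of_mul ho (H41.conj_pow_orderOf h) (c := (a * b) ^ (-i)) (k := k) ?_ ?_ ?_
      · rw [H9.left_mul_zpow ha.u2 hb.u2, neg_neg]; exact e
      · rw [map_zpow]; exact congrArg (· ^ (-i)) h3
      · rw [← zpow_natCast, ← zpow_mul, mul_comm, zpow_mul, zpow_natCast, hk, one_zpow]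
    refine centsC.1 (hle _ ?_ ?_) (mem_zpowers h) <;> rw [centralizer_zpowers, mem_cent1_iff, eq_comm,
      ← mul_inv_eq_iff_eq_mul]
    · exact h4
    · rwa [← conj_mul, h4, mul_right_inj] at h3
  have hTS := hle S ha.uS hb.uS
  have hNT : 𝐍(S) ≤ 𝐍(closure {a, b}) := fun n hn => mem_normalizer_of_cj_le (cj_le_iff.2 (hle _
    (mem_cj.2 (by rw [inv_inv]; exact hT _ (ha.conj'' hS.isP hn)))
    (mem_cj.2 (by rw [inv_inv]; exact hT _ (hb.conj'' hS.isP hn)))))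
  generalize closure {a, b} = T at haT hbT hvT hodd hTS hNT hT
  have hNB : 𝐍(S) ≤ 𝐍(S ⊓ 𝐂(T)) := le_normalizer_inf le_rfl (le_normalizer_centralizer hNT)
  have hB : ∀ D u, SM S D u v → S ⊓ 𝐂(T) ≤ ZZ S D := fun D u h c hc =>
    h.zc c hc.1 fun s hs => hc.2 _ (hT _ (h.uu.conj' hS.isP hs))
  let A := closure {x | ∃ h ∈ 𝐍(S), Odd (orderOf h) ∧ ∃ c ∈ S ⊓ 𝐂(T), x = cm h c}
  have hAB : A ≤ S ⊓ 𝐂(T) := (closure_le _).2 (by
    rintro _ ⟨h, hh, -, c, hc, rfl⟩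
    exact cm_mem (hNB hh) hc)
  have hNA : 𝐍(S) ≤ 𝐍(A) := fun n hn => mem_normalizer_of_cj_le (cj_le_iff.2 ((closure_le _).2 (by
    rintro _ ⟨h, hh, ho, c, hc, rfl⟩
    refine mem_cj.2 (subset_closure ⟨n * h * n⁻¹, mul_mem (mul_mem hn hh) (inv_mem hn),
      by rwa [H9.orderOf_conj], _, conj_mem_of_mem_normalizer (hNB hn) hc, by rw [inv_inv, conj_cm]⟩))))
  have hA : A = ⊥ := hS.nsc A (hAB.trans inf_le_left) (by
    have h1 : A ≤ D0 := hAB.trans ((hB _ _ h0).trans inf_le_left)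
    exact h1.trans ((h0.eq ▸ h0.uu.ab : D0 ≤ 𝐂(D0)).trans (centralizer_anti h1))) hNA fun D hD n hn => by
    obtain ⟨u, h⟩ := hall D hD
    obtain ⟨k, hk, c, hc, -, rfl⟩ := hS.fac hD hn
    refine mul_mem (cents_norm (centralizer_anti ((closure_le _).2 ?_)) hk) (hNA hc)
    rintro _ ⟨x, hx, ho, c, hc, rfl⟩
    have h1 := hodd x hx ho
    have h2 : x ∈ 𝐍(Z0 S D) := norm_Z0 S D (h.eq ▸ cj_eq_self_iff.1 (by
      rw [cj_inf, cj_eq_of_mem_normalizer hx, cj_centralizer_singleton,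
        conj_eq_of_mem_centralizer h1 (hT _ h.uu)]))
    rcases h.zdec c (hB _ _ h hc) with e | e
    · exact cm_mem h2 e
    · rw [← cm_mul_left (h1 v hvT).symm]; exact cm_mem h2 e
  have hoddS : ∀ h ∈ 𝐍(S), Odd (orderOf h) → h ∈ 𝐂(S) := fun h hh ho =>
    mem_centralizer_of_coprime (hS.isP.to_le (inf_le_left : S ⊓ 𝐂(T) ≤ S)) (Nat.coprime_two_right.2 ho)
      (fun c hc => (cm_eq_one.1 (mem_bot.1 (hA.le (subset_closure ⟨h, hh, ho, c, hc, rfl⟩)))).symm)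
      fun x hx => mem_inf.2 ⟨mul_mem (conj_mem_of_mem_normalizer hh hx) (inv_mem hx), fun t ht => by
        have h1 := hodd h hh ho
        have h2 := h1 _ (conj_mem_of_mem_normalizer' (hNT (le_normalizer hx)) ht)
        calc t * ⁅h, x⁆ = t * h * x * h⁻¹ * x⁻¹ := by rw [commutatorElement_def]; group
          _ = h * x * h⁻¹ * (h * (x⁻¹ * t * x)) * h⁻¹ * x⁻¹ := by rw [h1 t ht]; group
          _ = _ := by rw [← h2, commutatorElement_def]; group⟩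
  have htop : ∀ n ∈ 𝐍(S), ∀ x ∈ S, cm n x ∈ T ⊔ ⁅S, S⁆ := fun n hn x hx => by
    obtain ⟨w, hw, c, hc, h1, h2, rfl⟩ := Gold.exists_parts n
    replace hw := zpowers_le.2 hn hw
    replace hc := hS.two c (zpowers_le.2 hn hc) h2
    rw [cm, show w * c * x * (w * c)⁻¹ = w * (c * x * c⁻¹) * w⁻¹ by group, conj_eq_of_mem_centralizer
      (hoddS w hw h1) (mul_mem (mul_mem hc hx) (inv_mem hc))]
    have := commutator_mem_commutator (inv_mem hx) hc
    exact mem_sup_right (by simpa [commutatorElement_def, mul_assoc] using this)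
  refine le_antisymm (le_of_le_sup_commutator hS.isP hS.isP le_normalizer hTS (le_normalizer.trans hNT)
    (hS.foc _ htop fun D hD n hn d hd => ?_)) hTS
  obtain ⟨u, h⟩ := hall D hD
  have huT := hT _ h.uu
  have ab := hS.ab D hD
  have hu : u ∈ D := h.eq ▸ mem_inf.2 ⟨h.uu.uS, mem_cent1_iff.2 rfl⟩
  have hv : v ∈ D := h.eq ▸ h.uu.vD
  have h1 : ∀ m ∈ 𝐍(D), m * v * m⁻¹ ∈ T := fun m hm => by
    rcases h.uu.vc m (h.eq ▸ hm) with e | e | e <;> rw [e]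
    exacts [hvT, huT, mul_mem huT hvT]
  have h2 : ∀ w ∈ D, cm n w ∈ T ⊔ ⁅S, S⁆ → ∀ d ∈ D, cm n (w * d) ∈ T ⊔ ⁅S, S⁆ →
      cm n d ∈ T ⊔ ⁅S, S⁆ := fun w hw e d hd e' => by
    rwa [cm_mul ab hn hw hd, mul_mem_cancel_left e] at e'
  have h3 : ∀ z ∈ Z0 S D, cm n z ∈ T ⊔ ⁅S, S⁆ := fun z hz => by
    obtain ⟨k, hk, c, hc, hc', rfl⟩ := hS.fac hD hn
    rw [cm, show k * c * z * (k * c)⁻¹ = k * (c * z * c⁻¹) * k⁻¹ by group, conj_eq_of_mem_centralizer hk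
      (conj_mem_of_mem_normalizer (norm_Z0 S D hc') hz)]
    exact htop c hc z (hD.le hz.1)
  have h4 : ∀ z ∈ ZZ S D, cm n z ∈ T ⊔ ⁅S, S⁆ := fun z hz => (h.zdec z hz).elim (h3 z) fun e =>
    h2 v hv (mem_sup_left (mul_mem (inv_mem hvT) (h1 n hn))) z hz.1 (h3 _ e)
  refine (h.ddec d hd).elim (h4 d) fun e => h2 u hu (mem_sup_left (mul_mem (inv_mem huT) ?_)) d hd (h4 _ e)
  obtain ⟨y, hy, e⟩ := h.uu.uy
  have := h1 _ (mul_mem hn (h.eq ▸ hy))
  rwa [show n * y * v * (n * y)⁻¹ = n * (y * v * y⁻¹) * n⁻¹ by group, e] at this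

/-- The focal subgroup theorem combined with Alperin's fusion theorem. -/
theorem foc_le (S : Sylow 2 G) {T : Subgroup G} (h1 : ∀ n ∈ 𝐍((S : Subgroup G)), ∀ x ∈ S, cm n x ∈ T)
    (h2 : ∀ D, Ess 2 ⊤ (S : Subgroup G) D → ∀ n ∈ 𝐍(D), ∀ x ∈ D, cm n x ∈ T) :
    commutator G ⊓ S ≤ T := by
  have key := alperin_ess' (isSylowIn_top S) (fun P k => ∀ x ∈ P, cm k x ∈ T)
    (fun P P' k h1 h2 x hx => h2 x (h1 hx))
    (fun P k l h1 h2 x hx => by
      have := mul_mem (h1 x hx) (h2 _ (cj_mem k hx))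
      simpa [cm, mul_assoc] using this)
    (fun P k h1 x hx => by
      obtain ⟨y, hy, rfl⟩ := mem_cj'.1 hx
      have := inv_mem (h1 y hy)
      simpa [cm, mul_assoc] using this)
    (fun V c _ _ h1 x hx => by simp [cm, conj_eq_of_mem_centralizer h1 hx])
    (fun n _ hn => h1 n hn) fun V hV _ _ n _ hn => h2 V hV n hn
  rw [commutator_inf_eq_focalSubgroup, focalSubgroup_def, closure_le]
  rintro _ ⟨h1, x, hx, k, rfl⟩
  have h2 : k * x⁻¹ * k⁻¹ ∈ (S : Subgroup G) := by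
    have := mul_mem (inv_mem hx) h1
    simpa [commutatorElement_def, mul_assoc] using this
  have := key (zpowers x⁻¹) k (zpowers_le.2 (inv_mem hx)) (mem_top k)
    (by rw [cj_zpowers]; exact zpowers_le.2 h2) _ (mem_zpowers _)
  simpa [cm, commutatorElement_def, mul_assoc] using this

/-- A subgroup normalized by `N(S)` and by the normalizers of all essential subgroups is strongly
closed. -/
theorem sc_of_norm (S : Sylow 2 G) {A : Subgroup G} (hA : A ≤ S) (h1 : 𝐍((S : Subgroup G)) ≤ 𝐍(A))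
    (h2 : ∀ D, Ess 2 ⊤ (S : Subgroup G) D → 𝐍(D) ≤ 𝐍(A)) : IsStronglyClosed A (S : Subgroup G) :=
  ⟨hA, fun x hx g hg => by
    obtain ⟨n, hn, e⟩ := (fus_of_norm (isSylowIn_top S) (inf_le_right.trans h1)
      fun U hU => inf_le_right.trans (h2 U hU)).conj (hA hx) (mem_top g) hg
    exact e ▸ conj_mem_of_mem_normalizer hn.2 hx⟩

end H32.AI
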